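import Mathlib
import Cfsg.Prelude.Def_Solvable
import Cfsg.Agent.Lib.FieldAut.Basic

/-! An abstract criterion for the failure of local balance. -/

set_option autoImplicit false
set_option linter.unusedSimpArgs false
set_option linter.unusedVariables false
set_option linter.unusedSectionVars false

namespace Cfsg.Agent.Lib.Classical

section abs

variable {K : Type*} [Group K] [Finite K]

/-- The fixed points of an automorphism. -/
abbrev autFix (x : MulAut K) : Subgroup K := MonoidHom.eqLocus x.toMonoidHom (MonoidHom.id K)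

theorem mem_autFix {x : MulAut K} {k : K} : k ∈ autFix x ↔ x k = k := Iff.rfl

theorem conj_comm_of_fix {x : MulAut K} {k : K} (h : x k = k) : MulAut.conj k * x = x * MulAut.conj k := by
  ext a
  simp [MulAut.mul_apply, MulAut.conj_apply, h]

/-- The abstract criterion. -/
theorem balance_abstract (hcen : ∀ k : K, (∀ a, k * a = a * k) → k = 1)
    (A : Subgroup (MulAut K)) (hinn : ∀ k : K, MulAut.conj k ∈ A) {p : ℕ} [Fact p.Prime] (x : MulAut K) (hxA : x ∈ A) (hord : orderOf x = p)
    (hne : ∃ k, x k = k ∧ k ≠ 1)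
    (ha : ∀ y : MulAut K, (∀ k, x k = k → y k = k) → y ∈ Subgroup.zpowers x)
    (hb : p ∣ Nat.card (autFix x) → ∀ T : Subgroup K, T ≤ autFix x → (∀ d t, x d = d → t ∈ T → d * t * d⁻¹ ∈ T) → (Nat.card T).Coprime p → T = ⊥) :
    Cfsg.pPrimeCore p ↥(A ⊓ Subgroup.centralizer {x}) ≠ ⊥ ↔ Nat.Coprime p (Nat.card (autFix x)) := by
  classical
  have hpp : p.Prime := Fact.out
  set C := ↥(A ⊓ Subgroup.centralizer {x}) with hC
  -- conjugation by a fixed point is in `C`
  let I : autFix x →* C :=
    { toFun := fun k => ⟨MulAut.conj k.1, hinn _, Subgroup.mem_centralizer_singleton_iff.2 (conj_comm_of_fix k.2)⟩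
      map_one' := by
        apply Subtype.ext
        simp
      map_mul' := by
        intro a b
        apply Subtype.ext
        show MulAut.conj (a * b : autFix x).1 = MulAut.conj a.1 * MulAut.conj b.1
        simp }
  have hIc : ∀ k, ((I k : C) : MulAut K) = MulAut.conj k.1 := fun k => rfl
  have hIinj : Function.Injective I := by
    intro a b hab
    have h1 : MulAut.conj a.1 = MulAut.conj b.1 := congrArg Subtype.val hab
    apply Subtype.ext
    have h2 : b.1⁻¹ * a.1 = 1 := by
      apply hcen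
      intro c
      have h3 := DFunLike.congr_fun h1 c
      simp only [MulAut.conj_apply] at h3
      have h4 : a.1 * c = b.1 * c * b.1⁻¹ * a.1 := by
        rw [← h3]
        group
      calc b.1⁻¹ * a.1 * c = b.1⁻¹ * (a.1 * c) := by group
        _ = b.1⁻¹ * (b.1 * c * b.1⁻¹ * a.1) := by rw [h4]
        _ = c * (b.1⁻¹ * a.1) := by group
    have h5 : a.1 = b.1 * (b.1⁻¹ * a.1) := by group
    rw [h5, h2, mul_one]
  -- elements of `C` preserve the fixed points
  have hCfix : ∀ (c : C) (k : K), x k = k → x (c.1 k) = c.1 k := by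
    intro c k hk
    have h1 : c.1 * x = x * c.1 := (Subgroup.mem_centralizer_singleton_iff.1 c.2.2)
    have h2 := DFunLike.congr_fun h1 k
    simp only [MulAut.mul_apply] at h2
    rw [← h2, hk]
  have hconj : ∀ (c : C) (k : autFix x), c * I k * c⁻¹ = I ⟨c.1 k.1, hCfix c k.1 k.2⟩ := by
    intro c k
    apply Subtype.ext
    show c.1 * MulAut.conj k.1 * c.1⁻¹ = MulAut.conj (c.1 k.1)
    ext a
    simp [MulAut.mul_apply, MulAut.conj_apply]
  constructor
  · intro hcore
    by_contra hnc
    apply hcore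
    have hdvd : p ∣ Nat.card (autFix x) := by
      by_contra h
      exact hnc ((Nat.Prime.coprime_iff_not_dvd hpp).2 h)
    rw [Cfsg.pPrimeCore]
    rw [eq_bot_iff, sSup_le_iff]
    rintro N ⟨hN, hNc⟩
    -- `T`
    let T : Subgroup K := (N.comap I).map (autFix x).subtype
    have hT : T ≤ autFix x := by
      rintro _ ⟨k, -, rfl⟩
      exact k.2
    have hTd : ∀ d t, x d = d → t ∈ T → d * t * d⁻¹ ∈ T := by
      rintro d _ hd ⟨k, hk, rfl⟩
      let d' : autFix x := ⟨d, hd⟩
      refine ⟨d' * k * d'⁻¹, ?_, rfl⟩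
      show I (d' * k * d'⁻¹) ∈ N
      rw [map_mul, map_mul, map_inv]
      exact hN.conj_mem _ hk _
    have hTc : (Nat.card T).Coprime p := by
      have h1 : Nat.card T ∣ Nat.card N := by
        have e : T ≃* N.comap I := (Subgroup.equivMapOfInjective (N.comap I) (autFix x).subtype (Subgroup.subtype_injective _)).symm
        rw [Nat.card_congr e.toEquiv]
        let f : N.comap I →* N := (I.comp (N.comap I).subtype).codRestrict N (fun a => a.2)
        have hf : Function.Injective f := by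
          intro a b hab
          apply Subtype.ext
          apply hIinj
          exact congrArg Subtype.val hab
        exact Subgroup.card_dvd_of_injective f hf
      exact Nat.Coprime.coprime_dvd_left h1 hNc
    have hT0 := hb hdvd T hT hTd hTc
    intro y hy
    -- `y` fixes the fixed points
    have hfix : ∀ k, x k = k → y.1 k = k := by
      intro k hk
      let k' : autFix x := ⟨k, hk⟩
      have h1 : y * I k' * y⁻¹ * (I k')⁻¹ ∈ N := by
        have h2 : y * I k' * y⁻¹ * (I k')⁻¹ = y * (I k' * y⁻¹ * (I k')⁻¹) := by group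
        rw [h2]
        exact N.mul_mem hy (hN.conj_mem _ (N.inv_mem hy) _)
      rw [hconj] at h1
      rw [← map_inv, ← map_mul] at h1
      have h3 : ((⟨y.1 k, hCfix y k hk⟩ * k'⁻¹ : autFix x) : K) ∈ T := ⟨_, h1, rfl⟩
      rw [hT0, Subgroup.mem_bot] at h3
      have h4 : y.1 k * k⁻¹ = 1 := h3
      exact mul_inv_eq_one.1 h4
    have hz := ha y.1 hfix
    obtain ⟨i, hi⟩ := Subgroup.mem_zpowers_iff.1 hz
    have hyp : y ^ p = 1 := by
      apply Subtype.ext
      show y.1 ^ p = 1
      rw [← hi, ← zpow_natCast, ← zpow_mul, mul_comm, zpow_mul, zpow_natCast, ← hord, pow_orderOf_eq_one, one_zpow]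
    have hyN : orderOf y ∣ Nat.card N := by
      have := orderOf_dvd_natCard (⟨y, hy⟩ : N)
      rwa [Subgroup.orderOf_mk] at this
    have hyd : orderOf y ∣ p := orderOf_dvd_of_pow_eq_one hyp
    have h1 : orderOf y = 1 := by
      have h2 : (orderOf y).Coprime p := Nat.Coprime.coprime_dvd_left hyN hNc
      have h3 := Nat.Coprime.eq_one_of_dvd h2 hyd
      exact h3
    rw [Subgroup.mem_bot]
    exact orderOf_eq_one_iff.1 h1
  · intro hc
    intro hbot
    obtain ⟨k, hk, hk1⟩ := hne
    let N : Subgroup C := I.range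
    have hNn : N.Normal := by
      constructor
      rintro _ ⟨a, rfl⟩ c
      rw [hconj]
      exact ⟨_, rfl⟩
    have hNc : (Nat.card N).Coprime p := by
      have h1 : Nat.card N ∣ Nat.card (autFix x) := by
        have := Subgroup.index_ker I
        rw [← this]
        exact Subgroup.index_dvd_card _
      exact Nat.Coprime.coprime_dvd_left h1 hc.symm
    have h2 : N ≤ Cfsg.pPrimeCore p C := le_sSup ⟨hNn, hNc⟩
    rw [hbot] at h2
    have h3 : I ⟨k, hk⟩ ∈ N := ⟨_, rfl⟩
    have h4 := h2 h3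
    rw [Subgroup.mem_bot] at h4
    have h5 : (⟨k, hk⟩ : autFix x) = 1 := hIinj (by rw [h4, map_one])
    exact hk1 (congrArg Subtype.val h5)

/-- Transport of the hypotheses along conjugation. -/
theorem balance_abstract_conj (hcen : ∀ k : K, (∀ a, k * a = a * k) → k = 1)
    (A : Subgroup (MulAut K)) (hinn : ∀ k : K, MulAut.conj k ∈ A) {p : ℕ} [Fact p.Prime] (x x₀ δ : MulAut K) (hx : x = δ * x₀ * δ⁻¹) (hxA : x ∈ A) (hord : orderOf x = p)
    (hne : ∃ k, x₀ k = k ∧ k ≠ 1)
    (ha : ∀ y : MulAut K, (∀ k, x₀ k = k → y k = k) → y ∈ Subgroup.zpowers x₀)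
    (hb : p ∣ Nat.card (autFix x₀) → ∀ T : Subgroup K, T ≤ autFix x₀ → (∀ d t, x₀ d = d → t ∈ T → d * t * d⁻¹ ∈ T) → (Nat.card T).Coprime p → T = ⊥) :
    Cfsg.pPrimeCore p ↥(A ⊓ Subgroup.centralizer {x}) ≠ ⊥ ↔ Nat.Coprime p (Nat.card (autFix x)) := by
  have hfixiff : ∀ k, x (δ k) = δ k ↔ x₀ k = k := by
    intro k
    rw [hx]
    simp only [MulAut.mul_apply, MulAut.inv_apply_self, EmbeddingLike.apply_eq_iff_eq]
  have hfixiff' : ∀ k, x k = k ↔ x₀ (δ⁻¹ k) = δ⁻¹ k := by
    intro k
    rw [← hfixiff]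
    simp
  have hcardfix : Nat.card (autFix x) = Nat.card (autFix x₀) := by
    apply Nat.card_congr
    refine Equiv.subtypeEquiv (δ⁻¹ : MulAut K).toEquiv ?_
    intro k
    exact hfixiff' k
  refine balance_abstract hcen A hinn x hxA hord ?_ ?_ ?_
  · obtain ⟨k, hk, hk1⟩ := hne
    refine ⟨δ k, (hfixiff k).2 hk, ?_⟩
    simpa using hk1
  · intro y hy
    have h1 : δ⁻¹ * y * δ ∈ Subgroup.zpowers x₀ := by
      apply ha
      intro k hk
      have h2 := hy (δ k) ((hfixiff k).2 hk)
      simp only [MulAut.mul_apply]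
      rw [h2]
      simp
    obtain ⟨i, hi⟩ := Subgroup.mem_zpowers_iff.1 h1
    rw [Subgroup.mem_zpowers_iff]
    refine ⟨i, ?_⟩
    rw [hx, conj_zpow, hi]
    group
  · intro hdvd T hT hTd hTc
    rw [hcardfix] at hdvd
    let T₀ : Subgroup K := T.map (δ⁻¹ : MulAut K).toMonoidHom
    have hcard₀ : Nat.card T₀ = Nat.card T := by
      apply Nat.card_congr
      exact (Subgroup.equivMapOfInjective T (δ⁻¹ : MulAut K).toMonoidHom (δ⁻¹ : MulAut K).injective).symm.toEquiv
    have h0 := hb hdvd T₀ ?_ ?_ (by rwa [hcard₀])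
    · rw [eq_bot_iff]
      intro t ht
      have h1 : (δ⁻¹ : MulAut K).toMonoidHom t ∈ T₀ := ⟨t, ht, rfl⟩
      rw [h0, Subgroup.mem_bot] at h1
      rw [Subgroup.mem_bot]
      have h2 : (δ⁻¹ : MulAut K) t = 1 := h1
      simpa using h2
    · rintro _ ⟨t, ht, rfl⟩
      exact (hfixiff' t).1 (hT ht)
    · rintro d _ hd ⟨t, ht, rfl⟩
      refine ⟨δ d * t * (δ d)⁻¹, hTd _ _ ((hfixiff d).2 hd) ht, ?_⟩
      show (δ⁻¹ : MulAut K) (δ d * t * (δ d)⁻¹) = d * (δ⁻¹ : MulAut K) t * d⁻¹
      simp

end abs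

section fieldAut

variable {F : Type*} [Field F] [Finite F]

/-- An automorphism fixing the fixed field of `σ` is a power of `σ`. -/
theorem mem_zpowers_of_fix (σ ρ : F ≃+* F) (h : ∀ a, a ∈ Cfsg.Agent.Lib.FieldAut.fixedField σ → ρ a = a) : ρ ∈ Subgroup.zpowers σ := by
  have : Finite (F ≃+* F) := Finite.of_injective (fun s : F ≃+* F => (s : F → F)) DFunLike.coe_injective
  haveI : Finite (Subgroup.zpowers σ) := inferInstance
  let e := FixedPoints.toAlgAutMulEquiv (Subgroup.zpowers σ) F
  let ρ' : F ≃ₐ[FixedPoints.subfield (Subgroup.zpowers σ) F] F := AlgEquiv.ofRingEquiv (f := ρ) (fun a => h a.1 a.2)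
  obtain ⟨g, hg⟩ := e.surjective ρ'
  have h1 : (g : F ≃+* F) = ρ := by
    ext a
    exact DFunLike.congr_fun hg a
  rw [← h1]
  exact g.2

end fieldAut

end Cfsg.Agent.Lib.Classical
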