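import Mathlib
import Cfsg.Agent.Lib.AutPSp.Main
import Cfsg.Agent.Lib.AutPSp.Uniq
import Cfsg.Agent.Lib.AutPSp.Split
import Cfsg.Agent.Lib.AutPSp.Coset
import Cfsg.Agent.Lib.Classical.Symp2

/-! Counting the semilinear automorphisms of `PSp`. -/

set_option autoImplicit false
set_option linter.unusedSimpArgs false
set_option linter.unusedVariables false
set_option linter.unusedSectionVars false

namespace Cfsg.Agent.Lib.Classical

open Matrix MulAction Cfsg.Agent.Lib.AutPSL Cfsg.Agent.Lib.AutPSp Cfsg.Agent.Lib.KnownSimple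
open scoped MatrixGroups LinearAlgebra.Projectivization

variable {m : ℕ} {F : Type*} [Field F]

local notation "ff" => Cfsg.sympForm m F
local notation "VV" => (Fin m ⊕ Fin m → F)
local notation "MM" => Matrix (Fin m ⊕ Fin m) (Fin m ⊕ Fin m) F
local notation "GG" => GL (Fin m ⊕ Fin m) F

/-- The semilinear automorphisms. -/
def semiSet (m : ℕ) (F : Type*) [Field F] : Set (MulAut (Cfsg.PSp m F)) :=
  {β | ∃ (g : GL (Fin m ⊕ Fin m) F) (σ : F ≃+* F) (hg : g ∈ Cfsg.GSp m F), β = psemi g σ hg}

theorem card_GSp [Fintype F] [Nonempty (Fin m)] :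
    Nat.card (Cfsg.GSp m F) = (Fintype.card F - 1) * Nat.card (Sp m F) := by
  classical
  have hsurj : Function.Surjective (mu (m := m) (F := F)) := fun a => ⟨dgH a, mu_dgH a⟩
  have hc := Subgroup.card_mul_index (mu (m := m) (F := F)).ker
  rw [Subgroup.index_ker, MonoidHom.range_eq_top.2 hsurj, Subgroup.card_top, Nat.card_eq_fintype_card (α := Fˣ), Fintype.card_units] at hc
  have hk : Nat.card (mu (m := m) (F := F)).ker = Nat.card (Sp m F) := by
    apply Nat.card_congr
    refine ⟨fun s => ⟨_, sp_of_mu s.2⟩, fun A => ⟨⟨spG A, spG_mem A⟩, ?_⟩, ?_, ?_⟩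
    · rw [MonoidHom.mem_ker]
      apply Units.ext
      apply mu_eq
      intro u v
      rw [Units.val_one, one_mul]
      exact ff_sp A u v
    · intro s
      apply Subtype.ext
      apply Subtype.ext
      apply Units.ext
      rfl
    · intro A
      apply Subtype.ext
      rfl
  rw [hk] at hc
  rw [← hc, mul_comm]

/-- The count of semilinear automorphisms. -/
theorem card_semiSet [Fintype F] [h1 : Fact (1 ≤ m)] [Nonempty (Fin m)] :
    Nat.card (semiSet m F) = Nat.card (Sp m F) * Nat.card (F ≃+* F) := by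
  classical
  have hrep : ∀ s : semiSet m F, ∃ x : (Cfsg.GSp m F) × (F ≃+* F), s.1 = psemi x.1.1 x.2 x.1.2 := by
    rintro ⟨β, g, σ, hg, rfl⟩
    exact ⟨(⟨g, hg⟩, σ), rfl⟩
  choose r hr using hrep
  -- scalars
  let sc : Fˣ → GG := fun c => Units.map (Matrix.scalar (Fin m ⊕ Fin m) : F →+* MM).toMonoidHom c
  have hsc : ∀ c : Fˣ, ((sc c : GG) : MM) = (c : F) • (1 : MM) := by
    intro c
    ext i j
    simp [sc, Matrix.scalar_apply, Matrix.diagonal_apply, Matrix.one_apply]
  have hscG : ∀ (c : Fˣ) (g : GG), g ∈ Cfsg.GSp m F → sc c * g ∈ Cfsg.GSp m F := by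
    intro c g hg
    obtain ⟨d, hd⟩ := mem_GSp.1 hg
    refine mem_GSp.2 ⟨c * c * d, fun u v => ?_⟩
    rw [Units.val_mul, hsc c, Matrix.smul_mul, one_mul, Matrix.smul_mulVec, Matrix.smul_mulVec, sympForm_smul_left, sympForm_smul_right, hd]
    simp only [Units.val_mul]
    ring
  let Φ : semiSet m F × Fˣ → (Cfsg.GSp m F) × (F ≃+* F) := fun x =>
    (⟨sc x.2 * (r x.1).1.1, hscG _ _ (r x.1).1.2⟩, (r x.1).2)
  have hΦ : Function.Bijective Φ := by
    constructor
    · rintro ⟨s, c⟩ ⟨s', c'⟩ h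
      simp only [Φ, Prod.mk.injEq, Subtype.mk.injEq] at h
      obtain ⟨h1', h2'⟩ := h
      -- first the automorphism
      have hs : s = s' := by
        apply Subtype.ext
        rw [hr s, hr s']
        have e1 : psemi (sc c * (r s).1.1) (r s).2 (hscG _ _ (r s).1.2) = psemi (r s).1.1 (r s).2 (r s).1.2 :=
          psemi_smul_eq (c := (c : F)) _ (r s).1.2 (hscG _ _ (r s).1.2) (by rw [Units.val_mul, hsc, Matrix.smul_mul, one_mul]) c.ne_zero
        have e2 : psemi (sc c' * (r s').1.1) (r s').2 (hscG _ _ (r s').1.2) = psemi (r s').1.1 (r s').2 (r s').1.2 :=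
          psemi_smul_eq (c := (c' : F)) _ (r s').1.2 (hscG _ _ (r s').1.2) (by rw [Units.val_mul, hsc, Matrix.smul_mul, one_mul]) c'.ne_zero
        rw [← e1, ← e2]
        exact psemi_congr h1' h2'
      subst hs
      refine Prod.ext rfl ?_
      have h3 := mul_right_cancel h1'
      apply Units.ext
      have h4 := congrArg (fun g : GG => (g : MM) (Sum.inl ⟨0, by have := h1.out; omega⟩) (Sum.inl ⟨0, by have := h1.out; omega⟩)) h3
      simpa [hsc] using h4
    · rintro ⟨⟨g, hg⟩, σ⟩
      let s : semiSet m F := ⟨psemi g σ hg, g, σ, hg, rfl⟩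
      have h2 := hr s
      obtain ⟨h3, c, hc0, hc⟩ := psemi_inj h2
      refine ⟨(s, Units.mk0 c hc0), ?_⟩
      simp only [Φ]
      refine Prod.ext (Subtype.ext (Units.ext ?_)) h3.symm
      rw [Units.val_mul, hsc]
      simp only [Units.val_mk0]
      rw [Matrix.smul_mul, one_mul]
      exact hc.symm
  have hcard := Nat.card_congr (Equiv.ofBijective Φ hΦ)
  rw [Nat.card_prod, Nat.card_prod, card_GSp, Nat.card_eq_fintype_card (α := Fˣ), Fintype.card_units] at hcard
  have hq : 0 < Fintype.card F - 1 := by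
    have := Fintype.one_lt_card (α := F)
    omega
  have : (Fintype.card F - 1) * Nat.card (semiSet m F) = (Fintype.card F - 1) * (Nat.card (Sp m F) * Nat.card (F ≃+* F)) := by
    rw [mul_comm, hcard, mul_assoc]
  exact Nat.eq_of_mul_eq_mul_left hq this

end Cfsg.Agent.Lib.Classical
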