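import Mathlib
import Cfsg.Agent.Lib.AutPSp.Main
import Cfsg.Agent.Lib.AutPSp.Uniq
import Cfsg.Agent.Lib.Classical.Symp2

/-! The exceptional graph automorphism of `Sp₄` in characteristic two. -/

set_option autoImplicit false
set_option linter.unusedSimpArgs false
set_option linter.unusedVariables false
set_option linter.unusedSectionVars false

namespace Cfsg.Agent.Lib.Classical

open Matrix MulAction Cfsg.Agent.Lib.AutPSp Cfsg.Agent.Lib.KnownSimple
open scoped MatrixGroups LinearAlgebra.Projectivization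

variable {F : Type*} [Field F]

local notation "ff" => Cfsg.sympForm 2 F
local notation "II" => (Fin 2 ⊕ Fin 2)
local notation "VV" => (Fin 2 ⊕ Fin 2 → F)
local notation "MM" => Matrix (Fin 2 ⊕ Fin 2) (Fin 2 ⊕ Fin 2) F

/-- The index `1`. -/
abbrev ia : Fin 2 ⊕ Fin 2 := Sum.inl 0
/-- The index `2`. -/
abbrev ib : Fin 2 ⊕ Fin 2 := Sum.inl 1
/-- The index `1'`. -/
abbrev ic : Fin 2 ⊕ Fin 2 := Sum.inr 0
/-- The index `2'`. -/
abbrev ie : Fin 2 ⊕ Fin 2 := Sum.inr 1

/-- `2 × 2` minors. -/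
def mnr (M : MM) (i j k l : II) : F := M i k * M j l - M i l * M j k

theorem mnr_mul (M N : MM) (i j k l : II) : mnr (M * N) i j k l =
    mnr M i j ia ib * mnr N ia ib k l + mnr M i j ia ie * mnr N ia ie k l + mnr M i j ic ie * mnr N ic ie k l +
    mnr M i j ic ib * mnr N ic ib k l + mnr M i j ia ic * mnr N ia ic k l + mnr M i j ib ie * mnr N ib ie k l := by
  simp only [mnr, Matrix.mul_apply, Fintype.sum_sum_type, Fin.sum_univ_two]
  ring

/-- The row pairs. -/
def pa1 : II → II := Sum.elim ![ia, ia] ![ic, ic]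
/-- The column pairs. -/
def pa2 : II → II := Sum.elim ![ib, ie] ![ie, ib]

/-- The matrix of `2 × 2` minors. -/
def psiM (M : MM) : MM := fun Z Y => mnr M (pa1 Z) (pa2 Z) (pa1 Y) (pa2 Y)

@[simp] theorem pa1_a : pa1 ia = ia := rfl
@[simp] theorem pa1_b : pa1 ib = ia := rfl
@[simp] theorem pa1_c : pa1 ic = ic := rfl
@[simp] theorem pa1_d : pa1 ie = ic := rfl
@[simp] theorem pa2_a : pa2 ia = ib := rfl
@[simp] theorem pa2_b : pa2 ib = ie := rfl
@[simp] theorem pa2_c : pa2 ic = ie := rfl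
@[simp] theorem pa2_d : pa2 ie = ib := rfl

theorem sum_II (f : II → F) : ∑ i, f i = f ia + f ib + f ic + f ie := by
  simp only [Fintype.sum_sum_type, Fin.sum_univ_two]
  ring

section Rel

variable (h2 : (2 : F) = 0) {M N : Matrix (Fin 2 ⊕ Fin 2) (Fin 2 ⊕ Fin 2) F}

/-- The relation from `M J Mᵀ = J`. -/
theorem row_rel (hM : M ∈ Matrix.symplecticGroup (Fin 2) F) (i j : II) :
    mnr M i j ia ic + mnr M i j ib ie = - Matrix.J (Fin 2) F i j := by
  have h := congrFun (congrFun (SymplecticGroup.mem_iff.1 hM) i) j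
  rw [← h]
  simp only [mnr, Matrix.mul_apply, Fintype.sum_sum_type, Fin.sum_univ_two, Matrix.J, Matrix.fromBlocks_apply₁₁,
    Matrix.fromBlocks_apply₁₂, Matrix.fromBlocks_apply₂₁, Matrix.fromBlocks_apply₂₂, Matrix.transpose_apply]
  simp [Matrix.one_apply]
  ring

/-- The relation from `Mᵀ J M = J`. -/
theorem col_rel (hM : M ∈ Matrix.symplecticGroup (Fin 2) F) (k l : II) :
    mnr M ia ic k l + mnr M ib ie k l = - Matrix.J (Fin 2) F k l := by
  have h := congrFun (congrFun (SymplecticGroup.mem_iff'.1 hM) k) l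
  rw [← h]
  simp only [mnr, Matrix.mul_apply, Fintype.sum_sum_type, Fin.sum_univ_two, Matrix.J, Matrix.fromBlocks_apply₁₁,
    Matrix.fromBlocks_apply₁₂, Matrix.fromBlocks_apply₂₁, Matrix.fromBlocks_apply₂₂, Matrix.transpose_apply]
  simp [Matrix.one_apply]
  ring

theorem J_pa (Z : II) : Matrix.J (Fin 2) F (pa1 Z) (pa2 Z) = 0 := by
  rcases Z with z | z <;> fin_cases z <;> simp [pa1, pa2, Matrix.J, Matrix.one_apply]

include h2

theorem psiM_mul (hM : M ∈ Matrix.symplecticGroup (Fin 2) F) (hN : N ∈ Matrix.symplecticGroup (Fin 2) F) :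
    (psiM (M * N) : MM) = psiM M * psiM N := by
  ext Z Y
  have e1 := row_rel hM (pa1 Z) (pa2 Z)
  have e2 := col_rel hN (pa1 Y) (pa2 Y)
  rw [J_pa, neg_zero] at e1 e2
  show mnr (M * N) _ _ _ _ = _
  rw [Matrix.mul_apply, sum_II, mnr_mul]
  simp only [psiM, pa1_a, pa1_b, pa1_c, pa1_d, pa2_a, pa2_b, pa2_c, pa2_d]
  linear_combination (mnr M (pa1 Z) (pa2 Z) ia ic) * e2 + (mnr N ib ie (pa1 Y) (pa2 Y)) * e1 - (mnr M (pa1 Z) (pa2 Z) ia ic) * (mnr N ib ie (pa1 Y) (pa2 Y)) * h2

end Rel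

/-- The determinant by Laplace expansion. -/
def dtr (M : MM) : F :=
  mnr M ia ib ia ib * mnr M ic ie ic ie - mnr M ia ib ia ic * mnr M ic ie ib ie + mnr M ia ib ia ie * mnr M ic ie ib ic +
  mnr M ia ib ib ic * mnr M ic ie ia ie - mnr M ia ib ib ie * mnr M ic ie ia ic + mnr M ia ib ic ie * mnr M ic ie ia ib

theorem dtr_eq_one {M : MM} (hM : M ∈ Matrix.symplecticGroup (Fin 2) F) : dtr M = 1 := by
  have h12 := row_rel hM ia ib
  have h13 := row_rel hM ia ic
  have h14 := row_rel hM ia ie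
  have h23 := row_rel hM ib ic
  have h24 := row_rel hM ib ie
  have h34 := row_rel hM ic ie
  simp [Matrix.J, Matrix.one_apply] at h12 h13 h14 h23 h24 h34
  have e : dtr M = (mnr M ia ic ia ic + mnr M ia ic ib ie) * (mnr M ib ie ia ic + mnr M ib ie ib ie)
      - (mnr M ia ib ia ic + mnr M ia ib ib ie) * (mnr M ic ie ia ic + mnr M ic ie ib ie)
      - (mnr M ia ie ia ic + mnr M ia ie ib ie) * (mnr M ib ic ia ic + mnr M ib ic ib ie) := by
    simp only [dtr, mnr]
    ring
  rw [e, h12, h13, h14, h23, h24, h34]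
  ring

/-- The form of a matrix on a pair of columns. -/
def sform (X : MM) (Y W : II) : F := (X ic Y * X ia W - X ia Y * X ic W) + (X ie Y * X ib W - X ib Y * X ie W)

theorem mem_of_sform {X : MM} (h : ∀ Y W, sform X Y W = Matrix.J (Fin 2) F Y W) : X ∈ Matrix.symplecticGroup (Fin 2) F := by
  rw [SymplecticGroup.mem_iff']
  ext Y W
  rw [← h]
  simp only [sform, Matrix.mul_apply, Fintype.sum_sum_type, Fin.sum_univ_two, Matrix.J, Matrix.fromBlocks_apply₁₁,
    Matrix.fromBlocks_apply₁₂, Matrix.fromBlocks_apply₂₁, Matrix.fromBlocks_apply₂₂, Matrix.transpose_apply]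
  simp [Matrix.one_apply]
  ring

section Mem

variable (h2 : (2 : F) = 0) {M : Matrix (Fin 2 ⊕ Fin 2) (Fin 2 ⊕ Fin 2) F}

include h2

theorem psiM_mem (hM : M ∈ Matrix.symplecticGroup (Fin 2) F) : psiM M ∈ Matrix.symplecticGroup (Fin 2) F := by
  apply mem_of_sform
  intro Y W
  have hD := dtr_eq_one hM
  have hY := col_rel hM (pa1 Y) (pa2 Y)
  have hW := col_rel hM (pa1 W) (pa2 W)
  rw [J_pa, neg_zero] at hY hW
  set y1 := pa1 Y with hy1
  set y2 := pa2 Y with hy2
  set w1 := pa1 W with hw1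
  set w2 := pa2 W with hw2
  -- the exact identity
  have key : sform (psiM M) Y W =
      (mnr M ia ib y1 y2 * mnr M ic ie w1 w2 + mnr M ic ie y1 y2 * mnr M ia ib w1 w2 - mnr M ia ie y1 y2 * mnr M ic ib w1 w2
        - mnr M ic ib y1 y2 * mnr M ia ie w1 w2 - mnr M ia ic y1 y2 * mnr M ib ie w1 w2 - mnr M ib ie y1 y2 * mnr M ia ic w1 w2)
      + 2 * (- mnr M ia ib y1 y2 * mnr M ic ie w1 w2 + mnr M ic ib y1 y2 * mnr M ia ie w1 w2 - mnr M ia ic y1 y2 * mnr M ia ic w1 w2)
      + mnr M ia ic y1 y2 * (mnr M ia ic w1 w2 + mnr M ib ie w1 w2) + mnr M ia ic w1 w2 * (mnr M ia ic y1 y2 + mnr M ib ie y1 y2) := by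
    simp only [sform, psiM, pa1_a, pa1_b, pa1_c, pa1_d, pa2_a, pa2_b, pa2_c, pa2_d, ← hy1, ← hy2, ← hw1, ← hw2]
    ring
  rw [key, hW, hY, h2]
  simp only [mul_zero, zero_mul, add_zero]
  -- the Laplace expansion
  have hlap : (mnr M ia ib y1 y2 * mnr M ic ie w1 w2 + mnr M ic ie y1 y2 * mnr M ia ib w1 w2 - mnr M ia ie y1 y2 * mnr M ic ib w1 w2
        - mnr M ic ib y1 y2 * mnr M ia ie w1 w2 - mnr M ia ic y1 y2 * mnr M ib ie w1 w2 - mnr M ib ie y1 y2 * mnr M ia ic w1 w2) =
      Matrix.J (Fin 2) F Y W := by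
    rcases Y with y | y <;> rcases W with w | w <;> fin_cases y <;> fin_cases w <;>
      simp only [hy1, hy2, hw1, hw2] <;>
      simp [Matrix.J, Matrix.one_apply] <;>
      simp only [mnr, dtr] at hD ⊢ <;>
      grind
  exact hlap

end Mem

/-- Plücker coordinates, modulo the form. -/
def plv (u v : VV) : VV := fun Z => u (pa1 Z) * v (pa2 Z) - u (pa2 Z) * v (pa1 Z)

theorem psiM_one : psiM (1 : MM) = 1 := by
  ext Z Y
  rcases Z with z | z <;> rcases Y with y | y <;> fin_cases z <;> fin_cases y <;>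
    simp [psiM, mnr, pa1, pa2, Matrix.one_apply]

section Vec

variable (h2 : (2 : F) = 0) {M : Matrix (Fin 2 ⊕ Fin 2) (Fin 2 ⊕ Fin 2) F} {u v : Fin 2 ⊕ Fin 2 → F}

theorem pl_mulVec (i j : II) : (M *ᵥ u) i * (M *ᵥ v) j - (M *ᵥ u) j * (M *ᵥ v) i =
    mnr M i j ia ib * (u ia * v ib - u ib * v ia) + mnr M i j ia ie * (u ia * v ie - u ie * v ia)
    + mnr M i j ic ie * (u ic * v ie - u ie * v ic) + mnr M i j ic ib * (u ic * v ib - u ib * v ic)
    + mnr M i j ia ic * (u ia * v ic - u ic * v ia) + mnr M i j ib ie * (u ib * v ie - u ie * v ib) := by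
  simp only [mnr, Matrix.mulVec, dotProduct, Fintype.sum_sum_type, Fin.sum_univ_two]
  ring

theorem ff_expand (u v : VV) : ff u v = - (u ia * v ic - u ic * v ia) - (u ib * v ie - u ie * v ib) := by
  rw [sympForm_apply, Fin.sum_univ_two]
  ring

include h2

theorem plv_mulVec (hM : M ∈ Matrix.symplecticGroup (Fin 2) F) (hf : ff u v = 0) :
    plv (M *ᵥ u) (M *ᵥ v) = psiM M *ᵥ plv u v := by
  ext Z
  have e1 := row_rel hM (pa1 Z) (pa2 Z)
  rw [J_pa, neg_zero] at e1
  rw [ff_expand] at hf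
  show (M *ᵥ u) (pa1 Z) * (M *ᵥ v) (pa2 Z) - (M *ᵥ u) (pa2 Z) * (M *ᵥ v) (pa1 Z) = _
  rw [pl_mulVec]
  simp only [Matrix.mulVec, dotProduct, sum_II, psiM, plv, pa1_a, pa1_b, pa1_c, pa1_d, pa2_a, pa2_b, pa2_c, pa2_d]
  linear_combination (u ib * v ie - u ie * v ib) * e1 - (mnr M (pa1 Z) (pa2 Z) ia ic) * hf - (mnr M (pa1 Z) (pa2 Z) ia ic) * (u ib * v ie - u ie * v ib) * h2

theorem plv_ne_zero (hf : ff u v = 0) (hu : u ≠ 0) (hi : ∀ c : F, c • u ≠ v) : plv u v ≠ 0 := by
  intro h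
  have h0 : ∀ Z, u (pa1 Z) * v (pa2 Z) - u (pa2 Z) * v (pa1 Z) = 0 := fun Z => congrFun h Z
  have hab := h0 ia
  have hae := h0 ib
  have hce := h0 ic
  have hcb := h0 ie
  simp only [pa1_a, pa1_b, pa1_c, pa1_d, pa2_a, pa2_b, pa2_c, pa2_d] at hab hae hce hcb
  rw [ff_expand] at hf
  have hpl : (u ia * v ic - u ic * v ia) * (u ib * v ie - u ie * v ib) = 0 := by
    linear_combination (u ic * v ie - u ie * v ic) * hab - (u ic * v ib - u ib * v ic) * hae
  have hac : u ia * v ic - u ic * v ia = 0 := by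
    have e : (u ia * v ic - u ic * v ia) ^ 2 = 0 := by
      linear_combination - hpl - (u ia * v ic - u ic * v ia) * hf
    exact pow_eq_zero_iff (by norm_num) |>.1 e
  have hbe : u ib * v ie - u ie * v ib = 0 := by
    linear_combination -hf - hac
  have hall : ∀ i j : II, u i * v j = u j * v i := by
    intro i j
    rcases i with i | i <;> rcases j with j | j <;> fin_cases i <;> fin_cases j <;> simp only [Fin.zero_eta, Fin.mk_one, Fin.isValue] <;> grind
  obtain ⟨k, hk⟩ := Function.ne_iff.1 hu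
  apply hi (v k / u k)
  funext j
  have := hall k j
  simp only [Pi.smul_apply, smul_eq_mul]
  have hk' : u k ≠ 0 := hk
  field_simp
  linear_combination -this

/-- The image of a pair under a basis change. -/
theorem plv_comb (u v : VV) (a b c d : F) : plv (a • u + b • v) (c • u + d • v) = (a * d - b * c) • plv u v := by
  ext Z
  simp only [plv, Pi.add_apply, Pi.smul_apply, smul_eq_mul]
  ring

end Vec

section Group

instance fact_one_le_two_g4 : Fact (1 ≤ 2) := ⟨by norm_num⟩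

variable (h2 : (2 : F) = 0)

/-- The graph endomorphism of `Sp₄`. -/
def psiHom : Sp 2 F →* Sp 2 F where
  toFun A := ⟨psiM A.1, psiM_mem h2 A.2⟩
  map_one' := Subtype.ext psiM_one
  map_mul' A B := Subtype.ext (psiM_mul h2 A.2 B.2)

theorem psiHom_coe (A : Sp 2 F) : (psiHom h2 A).1 = psiM A.1 := rfl

include h2

theorem neg_mat_eq (B : MM) : -B = B := by
  ext i j
  have : (2 : F) * B i j = 0 := by rw [h2, zero_mul]
  simp only [Matrix.neg_apply]
  linear_combination -this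

theorem pr_inj_two : Function.Injective (pr : Sp 2 F →* Cfsg.PSp 2 F) := by
  intro A B h
  rcases pr_eq_iff.1 h with e | e
  · exact Subtype.ext e
  · exact Subtype.ext (e.trans (neg_mat_eq h2 _))

/-- `Sp₄` is `PSp₄` in characteristic two. -/
noncomputable def prE : Sp 2 F ≃* Cfsg.PSp 2 F :=
  MulEquiv.ofBijective pr ⟨pr_inj_two h2, fun x => pr_surj x⟩

/-- The graph endomorphism of `PSp₄`. -/
noncomputable def tau0 : Cfsg.PSp 2 F →* Cfsg.PSp 2 F :=
  pr.comp ((psiHom h2).comp (prE h2).symm.toMonoidHom)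

theorem tau0_pr (A : Sp 2 F) : tau0 h2 (pr A) = pr (psiHom h2 A) := by
  show pr (psiHom h2 ((prE h2).symm (pr A))) = _
  congr 2
  exact (prE h2).symm_apply_apply A

omit h2 in
/-- The basis vector. -/
abbrev e_a : VV := Pi.single ia 1

omit h2 in
theorem ff_single_ea (j : II) : ff (Pi.single j 1) e_a = if j = ic then 1 else 0 := by
  rw [sympForm_apply, Fin.sum_univ_two]
  rcases j with j | j <;> fin_cases j <;> simp [Pi.single_apply]

omit h2 in
/-- The transvection entries. -/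
theorem tv_apply (i j : II) : (sympTr (e_a (F := F)) 1).1 i j = (1 : MM) i j + (if j = ic then 1 else 0) * (if i = ia then 1 else 0) := by
  have h := congrFun (sympT_mulVec (e_a (F := F)) 1 (Pi.single j 1)) i
  rw [Matrix.mulVec_single_one] at h
  rw [sympTr_coe]
  show (Cfsg.sympTransvection 2 e_a 1).col j i = _
  rw [h]
  simp only [Pi.add_apply, Pi.smul_apply, smul_eq_mul, one_mul, ff_single_ea]
  simp [Matrix.one_apply, Pi.single_apply, eq_comm]

omit h2 in
theorem psi_tv_b_c : psiM (sympTr (e_a (F := F)) 1).1 ib ic = 1 := by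
  simp [psiM, mnr, tv_apply, Matrix.one_apply]

omit h2 in
theorem psi_tv_a_c : psiM (sympTr (e_a (F := F)) 1).1 ia ic = 0 := by
  simp [psiM, mnr, tv_apply, Matrix.one_apply]

omit h2 in
theorem psi_tv_a_e : psiM (sympTr (e_a (F := F)) 1).1 ia ie = 1 := by
  simp [psiM, mnr, tv_apply, Matrix.one_apply]

omit h2 in
theorem psi_tv_b_e : psiM (sympTr (e_a (F := F)) 1).1 ib ie = 0 := by
  simp [psiM, mnr, tv_apply, Matrix.one_apply]

theorem tau0_ne_one : tau0 h2 ≠ 1 := by
  intro h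
  have h1 := DFunLike.congr_fun h (pr (sympTr (e_a (F := F)) 1))
  rw [tau0_pr] at h1
  have h3 : psiHom h2 (sympTr (e_a (F := F)) 1) = 1 := by
    apply pr_inj_two h2
    rw [h1, map_one]
    rfl
  have h4 := congrArg (fun A : Sp 2 F => A.1 ib ic) h3
  simp only [psiHom_coe, psi_tv_b_c] at h4
  simp [Matrix.one_apply] at h4

/-- The graph automorphism of `PSp₄`. -/
noncomputable def tauE [Fintype F] (h3 : 3 ≤ Fintype.card F) : MulAut (Cfsg.PSp 2 F) :=
  MulEquiv.ofBijective (tau0 h2) (by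
    haveI := psp_simple (F := F) (m := 2) le_rfl (fun _ => h3)
    have hinj : Function.Injective (tau0 h2) := by
      rw [injective_iff_map_eq_one]
      intro x hx
      rcases (inferInstance : IsSimpleGroup (Cfsg.PSp 2 F)).eq_bot_or_eq_top_of_normal (tau0 h2).ker (MonoidHom.normal_ker _) with e | e
      · have : x ∈ (tau0 h2).ker := hx
        rw [e] at this
        exact this
      · exfalso
        apply tau0_ne_one h2
        apply MonoidHom.ext
        intro y
        have : y ∈ (tau0 h2).ker := by rw [e]; exact Subgroup.mem_top _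
        exact this
    exact ⟨hinj, Finite.injective_iff_surjective.1 hinj⟩)

theorem tauE_pr [Fintype F] (h3 : 3 ≤ Fintype.card F) (A : Sp 2 F) : tauE h2 h3 (pr A) = pr (psiHom h2 A) := tau0_pr h2 A

/-- The image of a line stabiliser is inside a point stabiliser. -/
theorem tau_St_le [Fintype F] (h3 : 3 ≤ Fintype.card F) {W : Submodule F VV} (hTI : TI W) (hk : Module.finrank F W = 2) :
    ∃ z, (St W).map (tauE h2 h3).toMonoidHom ≤ P z := by
  let b := Module.finBasisOfFinrankEq F W hk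
  obtain ⟨u, hu⟩ : ∃ u : VV, u = (b 0 : W) := ⟨_, rfl⟩
  obtain ⟨v, hv⟩ : ∃ v : VV, v = (b 1 : W) := ⟨_, rfl⟩
  have huW : u ∈ W := by rw [hu]; exact (b 0).2
  have hvW : v ∈ W := by rw [hv]; exact (b 1).2
  have hspan : ∀ w ∈ W, ∃ x y : F, w = x • u + y • v := by
    intro w hw
    refine ⟨b.repr ⟨w, hw⟩ 0, b.repr ⟨w, hw⟩ 1, ?_⟩
    have := b.sum_repr ⟨w, hw⟩
    rw [Fin.sum_univ_two] at this
    have h5 := congrArg Subtype.val this
    simp only [Submodule.coe_add, Submodule.coe_smul] at h5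
    rw [hu, hv]
    exact h5.symm
  have hf : ff u v = 0 := hTI _ huW _ hvW
  have hli := b.linearIndependent
  have hu0 : u ≠ 0 := by
    rw [hu]
    intro h
    exact hli.ne_zero 0 (Subtype.ext h)
  have hi : ∀ c : F, c • u ≠ v := by
    intro c hc
    have h5 := Fintype.linearIndependent_iff.1 hli ![c, -1] (by
      apply Subtype.ext
      rw [Fin.sum_univ_two]
      simp only [Matrix.cons_val_zero, Matrix.cons_val_one, Submodule.coe_add, Submodule.coe_smul, ← hu, ← hv, hc, ZeroMemClass.coe_zero]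
      simp) 1
    simp at h5
  have hne := plv_ne_zero h2 hf hu0 hi
  refine ⟨Projectivization.mk F (plv u v) hne, ?_⟩
  rintro _ ⟨y, hy, rfl⟩
  obtain ⟨A, rfl⟩ := pr_surj y
  change tauE h2 h3 (pr A) ∈ _
  rw [tauE_pr, mem_P_iff]
  have hA := mem_St.1 hy
  have h5 : A.1 *ᵥ u ∈ W := by
    rw [← hA]
    exact mulVec_mem_mp huW
  have h6 : A.1 *ᵥ v ∈ W := by
    rw [← hA]
    exact mulVec_mem_mp hvW
  obtain ⟨a1, a2, e1⟩ := hspan _ h5
  obtain ⟨a3, a4, e2⟩ := hspan _ h6
  refine ⟨a1 * a4 - a2 * a3, ?_⟩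
  rw [psiHom_coe, ← plv_mulVec h2 A.2 hf, e1, e2, plv_comb h2]

end Group

end Cfsg.Agent.Lib.Classical
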