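import Mathlib
import Cfsg.Agent.Lib.Classical.Sp4Graph
import Cfsg.Agent.Lib.Classical.APCount

/-! Automorphisms of `PSp_{2m}(F)`: the point stabiliser criterion and the exceptional case. -/

set_option autoImplicit false
set_option linter.unusedSimpArgs false
set_option linter.unusedVariables false
set_option linter.unusedSectionVars false

namespace Cfsg.Agent.Lib.Classical

open Matrix MulAction Cfsg.Agent.Lib.AutPSp Cfsg.Agent.Lib.KnownSimple Cfsg.Agent.Lib.ClassMax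
open scoped MatrixGroups LinearAlgebra.Projectivization

variable {m : ℕ} {F : Type*} [Field F]

local notation "ff" => Cfsg.sympForm m F
local notation "VV" => (Fin m ⊕ Fin m → F)
local notation "MM" => Matrix (Fin m ⊕ Fin m) (Fin m ⊕ Fin m) F

section Nu

variable [Fintype F] [hm1 : Fact (1 ≤ m)] (α : MulAut (Cfsg.PSp m F))
  (hpt : ∀ x : ℙ F (Fin m ⊕ Fin m → F), ∃ x', (P x).map α.toMonoidHom = P x')

/-- The induced map on points. -/
noncomputable def nuP (x : ℙ F (Fin m ⊕ Fin m → F)) : ℙ F (Fin m ⊕ Fin m → F) := (hpt x).choose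

theorem nuP_spec (x : ℙ F VV) : (P x).map α.toMonoidHom = P (nuP α hpt x) := (hpt x).choose_spec

theorem nuP_inj : Function.Injective (nuP α hpt) := by
  intro x y h
  apply P_inj
  have h1 := nuP_spec α hpt x
  have h2 := nuP_spec α hpt y
  rw [h, ← h2] at h1
  exact Subgroup.map_injective α.injective h1

theorem nuP_bij : Function.Bijective (nuP α hpt) :=
  ⟨nuP_inj α hpt, Finite.surjective_of_injective (nuP_inj α hpt)⟩

theorem nuP_smul (g : Cfsg.PSp m F) (x : ℙ F VV) :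
    nuP α hpt (g • x) = α g • nuP α hpt x := by
  apply P_inj
  rw [← nuP_spec]
  rw [show P (α g • nuP α hpt x) = (P (nuP α hpt x)).map (MulAut.conj (α g)).toMonoidHom from
    MulAction.stabilizer_smul_eq_stabilizer_map_conj _ _, ← nuP_spec,
    show P (g • x) = (P x).map (MulAut.conj g).toMonoidHom from MulAction.stabilizer_smul_eq_stabilizer_map_conj _ _,
    Subgroup.map_map, Subgroup.map_map]
  congr 1
  ext y
  simp

local notation "ν" => nuP α hpt

theorem nuP_cls_same {x y y' : ℙ F VV} (h : cls x y = cls x y') : cls (ν x) (ν y) = cls (ν x) (ν y') := by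
  obtain ⟨a, ha, rfl⟩ := exists_P_of_cls h
  rw [nuP_smul]
  have : α a ∈ P (ν x) := by
    rw [← nuP_spec]
    exact ⟨a, ha, rfl⟩
  rw [cls_smul this]

theorem nuP_cls_same' {x y y' : ℙ F VV} (h : cls (ν x) (ν y) = cls (ν x) (ν y')) : cls x y = cls x y' := by
  obtain ⟨b, hb, hbe⟩ := exists_P_of_cls h
  rw [← nuP_spec] at hb
  obtain ⟨a, ha, rfl⟩ := hb
  have h1 : a • y = y' := by
    apply nuP_inj α hpt
    rw [nuP_smul]
    exact hbe
  rw [← h1, cls_smul ha]

theorem nuP_cls (x y : ℙ F VV) : cls (ν x) (ν y) = cls x y := by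
  have hzero : ∀ y', cls (ν x) (ν y') = 0 ↔ cls x y' = 0 := by
    intro y'
    rw [cls_zero, cls_zero, (nuP_inj α hpt).eq_iff]
  by_contra hne
  have hc0 : cls x y ≠ 0 := fun h => hne (by rw [h, (hzero y).2 h])
  have hd0 : cls (ν x) (ν y) ≠ 0 := fun h => hc0 ((hzero y).1 h)
  set c := cls x y with hc
  set d := cls (ν x) (ν y) with hd
  have hP : ∀ y', cls x y' = c ↔ cls (ν x) (ν y') = d := by
    intro y'
    constructor
    · intro h
      exact nuP_cls_same α hpt h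
    · intro h
      exact nuP_cls_same' α hpt h
  have hfin : ∀ a b e f : Fin 3, e ≠ 0 → f ≠ 0 → e ≠ f → (a = e ↔ b = f) → (a = 0 ↔ b = 0) → (a = f ↔ b = e) := by
    decide
  have hP2 : ∀ y', cls x y' = d ↔ cls (ν x) (ν y') = c := by
    intro y'
    exact hfin _ _ c d hc0 hd0 (Ne.symm hne) (hP y') (hzero y').symm
  let e : ℙ F VV ≃ ℙ F VV := Equiv.ofBijective ν (nuP_bij α hpt)
  have h1 : Nat.card {y' : ℙ F VV // cls x y' = c} = Nat.card {y' : ℙ F VV // cls (ν x) y' = d} :=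
    Nat.card_congr (Equiv.subtypeEquiv e hP)
  have h2 : Nat.card {y' : ℙ F VV // cls x y' = d} = Nat.card {y' : ℙ F VV // cls (ν x) y' = c} :=
    Nat.card_congr (Equiv.subtypeEquiv e hP2)
  have h3 := card_cls_lt x
  have h5 := card_cls_lt (ν x)
  have hcases : ∀ c d : Fin 3, c ≠ 0 → d ≠ 0 → d ≠ c → (c = 1 ∧ d = 2) ∨ (c = 2 ∧ d = 1) := by decide
  rcases hcases c d hc0 hd0 hne with ⟨hc1, hd2⟩ | ⟨hc2, hd1⟩
  · rw [hc1, hd2] at h1 h2
    omega
  · rw [hc2, hd1] at h1 h2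
    omega

theorem nuP_Prp (x y : ℙ F VV) : Prp (ν x) (ν y) ↔ Prp x y := by
  by_cases h : y = x
  · subst h
    simp only [Prp]
    rw [sympForm_self, sympForm_self]
  · have h1 := nuP_cls α hpt x y
    by_cases h2 : Prp x y
    · have h3 : cls x y = 1 := cls_one.2 ⟨h, h2⟩
      rw [h3] at h1
      exact ⟨fun _ => h2, fun _ => (cls_one.1 h1).2⟩
    · have h3 : cls x y = 2 := cls_two.2 h2
      rw [h3] at h1
      exact ⟨fun h5 => absurd h5 (cls_two.1 h1), fun h5 => absurd h5 h2⟩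

include hpt in
/-- An automorphism permuting the point stabilisers is semilinear. -/
theorem aut_semilinear_of_pts (hm : 2 ≤ m) :
    ∃ (g : GL (Fin m ⊕ Fin m) F) (σ : F ≃+* F) (hg : g ∈ Cfsg.GSp m F), α = psemi g σ hg := by
  obtain ⟨g, σ, hg, hmain⟩ := ftpg_perp hm (nuP α hpt) (nuP_bij α hpt) (nuP_Prp α hpt)
  refine ⟨g, σ, hg, ?_⟩
  ext y
  apply FaithfulSMul.eq_of_smul_eq_smul (α := ℙ F VV)
  intro z
  obtain ⟨x, rfl⟩ := (nuP_bij α hpt).2 z
  rw [← nuP_smul]
  induction x using Projectivization.ind with | _ v hv =>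
  obtain ⟨h2, h3⟩ := hmain v hv
  set w := (y • Projectivization.mk F v hv).rep with hw
  have h5 : y • Projectivization.mk F v hv = Projectivization.mk F w (Projectivization.rep_nonzero _) := (Projectivization.mk_rep _).symm
  obtain ⟨h6, h7⟩ := hmain w (Projectivization.rep_nonzero _)
  rw [h5, h7, h3]
  exact (psemi_smul g σ hg y hv h2 w _ h6 h5).symm

end Nu

/-- One point stabiliser mapping to a point stabiliser suffices. -/
theorem pts_of_one [hm1 : Fact (1 ≤ m)] (α : MulAut (Cfsg.PSp m F)) {x₀ z : ℙ F VV} (h : (P x₀).map α.toMonoidHom = P z) (x : ℙ F VV) :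
    ∃ x', (P x).map α.toMonoidHom = P x' := by
  obtain ⟨g, rfl⟩ := MulAction.exists_smul_eq (Cfsg.PSp m F) x₀ x
  refine ⟨α g • z, ?_⟩
  rw [show P (g • x₀) = (P x₀).map (MulAut.conj g).toMonoidHom from MulAction.stabilizer_smul_eq_stabilizer_map_conj g _,
    show P (α g • z) = (P z).map (MulAut.conj (α g)).toMonoidHom from MulAction.stabilizer_smul_eq_stabilizer_map_conj _ _,
    ← h, Subgroup.map_map, Subgroup.map_map]
  congr 1
  ext y
  simp

/-- The semilinear automorphisms form a subgroup. -/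
theorem semiSet_mul {a b : MulAut (Cfsg.PSp m F)} (ha : a ∈ semiSet m F) (hb : b ∈ semiSet m F) : a * b ∈ semiSet m F := by
  obtain ⟨g, σ, hg, rfl⟩ := ha
  obtain ⟨h, τ, hh, rfl⟩ := hb
  exact ⟨_, _, _, psemi_mul hg hh σ τ⟩

theorem semiSet_inv {a : MulAut (Cfsg.PSp m F)} (ha : a ∈ semiSet m F) : a⁻¹ ∈ semiSet m F := by
  obtain ⟨g, σ, hg, rfl⟩ := ha
  exact ⟨_, _, _, psemi_inv hg σ⟩

/-- Counting a group which is the union of a subset closed under products and inverses and a translate. -/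
theorem card_two_cosets {A : Type*} [Group A] [Finite A] (S : Set A) (T : A) (hmul : ∀ a b, a ∈ S → b ∈ S → a * b ∈ S)
    (hinv : ∀ a, a ∈ S → a⁻¹ ∈ S) (hT : T ∉ S) (hall : ∀ a, a ∈ S ∨ T * a ∈ S) : Nat.card A = 2 * Nat.card S := by
  classical
  have h1 : Nat.card A = Nat.card S + Nat.card {a : A // a ∉ S} := by
    rw [← Nat.card_sum]
    exact Nat.card_congr (Equiv.sumCompl (fun a => a ∈ S)).symm
  have h2 : Nat.card {a : A // a ∉ S} = Nat.card S := by
    apply Nat.card_congr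
    refine ⟨fun a => ⟨T * a.1, (hall a.1).resolve_left a.2⟩, fun s => ⟨T⁻¹ * s.1, ?_⟩, ?_, ?_⟩
    · intro h
      apply hT
      have := hmul _ _ s.2 (hinv _ h)
      simpa using this
    · intro a
      apply Subtype.ext
      simp
    · intro s
      apply Subtype.ext
      simp
  omega

section Exceptional

local notation "VV2" => (Fin 2 ⊕ Fin 2 → F)

variable [Fintype F]

/-- Where a point stabiliser goes in `PSp₄`. -/
theorem exc_cases {p : ℕ} [Fact p.Prime] [CharP F p] (α : MulAut (Cfsg.PSp 2 F)) :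
    ∃ x₀ : ℙ F VV2, (∃ z, (P x₀).map α.toMonoidHom = P z) ∨
      ∃ W : Submodule F VV2, TI W ∧ Module.finrank F W = 2 ∧ (P x₀).map α.toMonoidHom = St W := by
  let i₀ : Fin 2 := 0
  have hu0 : (Pi.single (Sum.inl i₀) 1 : VV2) ≠ 0 := Pi.single_ne_zero_iff.2 one_ne_zero
  set u₀ : VV2 := Pi.single (Sum.inl i₀) 1 with hu₀
  set x₀ := Projectivization.mk F u₀ hu0 with hx₀
  set Q := Qr (m := 2) (F := F) u₀ with hQdef
  have hQn := Qr_normal (m := 2) (F := F) hu0
  have hQp : IsPGroup p Q := Qr_isPGroup u₀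
  have hQne : Q ≠ ⊥ := Qr_ne_bot i₀
  have hSt := map_eq_St α x₀ hQn hQp hQne
  set R := Q.map α.toMonoidHom with hR
  set W := radV R with hW
  have hRp : IsPGroup p R := hQp.map _
  have hRne : R ≠ ⊥ := by
    intro h
    apply hQne
    rw [hR, Subgroup.map_eq_bot_iff_of_injective _ α.injective] at h
    exact h
  have hW0 : W ≠ ⊥ := radV_ne_bot hRp hRne
  have hTI : TI W := TI_radV R
  have hk0 : Module.finrank F W ≠ 0 := fun h => hW0 (Submodule.finrank_eq_zero.1 h)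
  have hkm := TI_finrank_le hTI
  refine ⟨x₀, ?_⟩
  by_cases hk1 : Module.finrank F W = 1
  · obtain ⟨x, hx⟩ := St_of_finrank_one hk1
    exact Or.inl ⟨x, hSt.trans hx⟩
  · exact Or.inr ⟨W, hTI, by omega, hSt⟩

variable (h2 : (2 : F) = 0) (h3 : 3 ≤ Fintype.card F)

include h2 h3

/-- Every automorphism of `PSp₄` in characteristic two is semilinear, up to the graph automorphism. -/
theorem exc_all {p : ℕ} [Fact p.Prime] [CharP F p] (α : MulAut (Cfsg.PSp 2 F)) :
    α ∈ semiSet 2 F ∨ tauE h2 h3 * α ∈ semiSet 2 F := by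
  obtain ⟨x₀, ⟨z, hz⟩ | ⟨W, hTI, hk, hW⟩⟩ := exc_cases (p := p) α
  · left
    obtain ⟨g, σ, hg, e⟩ := aut_semilinear_of_pts α (pts_of_one α hz) (le_refl 2)
    exact ⟨g, σ, hg, e⟩
  · right
    obtain ⟨z, hz⟩ := tau_St_le h2 h3 hTI hk
    set β := tauE h2 h3 * α with hβ
    have e : (P x₀).map β.toMonoidHom = (St W).map (tauE h2 h3).toMonoidHom := by
      rw [← hW, Subgroup.map_map]
      rfl
    have hco : IsCoatom ((P x₀).map β.toMonoidHom) := ((MulEquiv.mapSubgroup β).isCoatom_iff (P x₀)).2 (isCoatom_P x₀)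
    have hle : (P x₀).map β.toMonoidHom ≤ P z := by
      rw [e]
      exact hz
    have hEq : (P x₀).map β.toMonoidHom = P z := by
      by_contra hne
      exact (isCoatom_P z).1 (hco.2 _ (lt_of_le_of_ne hle hne))
    obtain ⟨g, σ, hg, e'⟩ := aut_semilinear_of_pts β (pts_of_one β hEq) (le_refl 2)
    exact ⟨g, σ, hg, e'⟩

omit h2 h3 in
theorem tv_map (σ : F ≃+* F) : (sympTr (e_a (F := F)) 1).1.map σ = (sympTr (e_a (F := F)) 1).1 := by
  ext i j
  rw [Matrix.map_apply, tv_apply]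
  rcases i with i | i <;> rcases j with j | j <;> fin_cases i <;> fin_cases j <;> simp [Matrix.one_apply]

/-- The graph automorphism is not semilinear. -/
theorem tau_not_semi : tauE h2 h3 ∉ semiSet 2 F := by
  rintro ⟨g, σ, hg, e⟩
  set t := sympTr (e_a (F := F)) 1 with ht
  have h1 := DFunLike.congr_fun e (pr t)
  rw [tauE_pr, psemi_pr] at h1
  have h4 := pr_inj_two h2 h1
  have h5 : psiM t.1 = (g : Matrix (Fin 2 ⊕ Fin 2) (Fin 2 ⊕ Fin 2) F) * t.1 * ((g⁻¹ : GL _ F) : Matrix (Fin 2 ⊕ Fin 2) (Fin 2 ⊕ Fin 2) F) := by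
    have := congrArg Subtype.val h4
    rw [psiHom_coe, spSemi_coe, ht, tv_map] at this
    exact this
  obtain ⟨y₀, hy₀⟩ : ∃ y₀ : VV2, y₀ = (g : Matrix (Fin 2 ⊕ Fin 2) (Fin 2 ⊕ Fin 2) F) *ᵥ e_a := ⟨_, rfl⟩
  have key : ∀ z : VV2, ∃ c : F, psiM t.1 *ᵥ z = z + c • y₀ := by
    intro z
    refine ⟨1 * Cfsg.sympForm 2 F (((g⁻¹ : GL _ F) : Matrix (Fin 2 ⊕ Fin 2) (Fin 2 ⊕ Fin 2) F) *ᵥ z) e_a, ?_⟩
    rw [h5, ← Matrix.mulVec_mulVec, ← Matrix.mulVec_mulVec, ht, sympTr_coe, sympT_mulVec, Matrix.mulVec_add, Matrix.mulVec_smul,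
      Matrix.mulVec_mulVec, ← Units.val_mul, mul_inv_cancel, hy₀]
    simp
  obtain ⟨c₁, hc₁⟩ := key (Pi.single ic 1)
  obtain ⟨c₂, hc₂⟩ := key (Pi.single ie 1)
  have col : ∀ (X : Matrix (Fin 2 ⊕ Fin 2) (Fin 2 ⊕ Fin 2) F) (i j : Fin 2 ⊕ Fin 2), (X *ᵥ Pi.single j 1) i = X i j := by
    intro X i j
    rw [Matrix.mulVec_single_one]
    rfl
  have a1 := congrFun hc₁ ia
  have a2 := congrFun hc₁ ib
  have a3 := congrFun hc₂ ia
  rw [col, ht, psi_tv_a_c] at a1
  rw [col, ht, psi_tv_b_c] at a2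
  rw [col, ht, psi_tv_a_e] at a3
  simp [Pi.single_apply] at a1 a2 a3
  have hc₁0 : c₁ ≠ 0 := by
    rintro rfl
    simp at a2
  have hy : y₀ ia = 0 := by
    rcases a1 with a1 | a1
    · exact absurd a1 hc₁0
    · exact a1
  rw [hy] at a3
  simp at a3

end Exceptional

end Cfsg.Agent.Lib.Classical
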