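import Mathlib
import Cfsg.Prelude.Def_Classical
import Cfsg.Agent.Lib.Classical.OrthStep

/-! Models of classical groups on even-weight vectors modulo the all-ones vector. -/

set_option autoImplicit false
set_option linter.unusedSimpArgs false
set_option linter.unusedVariables false
set_option linter.unusedSectionVars false

namespace Cfsg.Agent.Lib.Classical

open Matrix

section PM

variable {Ω ι : Type} [Fintype Ω] [DecidableEq Ω] [Fintype ι] [DecidableEq ι] {F : Type*} [Field F]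

/-- Permutation of coordinates. -/
def permL (σ : Equiv.Perm Ω) : (Ω → F) →ₗ[F] (Ω → F) where
  toFun x := fun i => x (σ⁻¹ i)
  map_add' _ _ := rfl
  map_smul' _ _ := rfl

@[simp] theorem permL_apply (σ : Equiv.Perm Ω) (x : Ω → F) (i : Ω) : permL σ x i = x (σ⁻¹ i) := rfl

theorem permL_mul (σ τ : Equiv.Perm Ω) (x : Ω → F) : permL (σ * τ) x = permL σ (permL τ x) := by
  funext i
  simp [_root_.mul_inv_rev]

theorem permL_one (x : Ω → F) : permL (1 : Equiv.Perm Ω) x = x := by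
  funext i
  simp

theorem sum_permL (σ : Equiv.Perm Ω) (x : Ω → F) : ∑ i, permL σ x i = ∑ i, x i :=
  Equiv.sum_comp σ⁻¹ x

theorem permL_const (σ : Equiv.Perm Ω) (c : F) : permL σ (c • fun _ => (1 : F)) = c • fun _ => (1 : F) := rfl

/-- The hypotheses on the pair `ψ, π`: `π` is a left inverse of `ψ`, `ψ` has values in the sum-zero
vectors, and `ψ π` is the identity modulo constants killed by `π` on the sum-zero vectors. -/
structure PM (ψ : (ι → F) →ₗ[F] (Ω → F)) (π : (Ω → F) →ₗ[F] (ι → F)) : Prop where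
  left : ∀ v, π (ψ v) = v
  mem : ∀ v, ∑ i, ψ v i = 0
  adj : ∀ x : Ω → F, ∑ i, x i = 0 → ∃ c : F, ψ (π x) = x + c • (fun _ => 1) ∧ π (c • fun _ => 1) = 0

/-- The linear map attached to a permutation. -/
def pmL (ψ : (ι → F) →ₗ[F] (Ω → F)) (π : (Ω → F) →ₗ[F] (ι → F)) (σ : Equiv.Perm Ω) :
    (ι → F) →ₗ[F] (ι → F) :=
  π ∘ₗ permL σ ∘ₗ ψ

theorem pmL_apply (ψ : (ι → F) →ₗ[F] (Ω → F)) (π : (Ω → F) →ₗ[F] (ι → F)) (σ : Equiv.Perm Ω) (v : ι → F) :
    pmL ψ π σ v = π (permL σ (ψ v)) := rfl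

variable {ψ : (ι → F) →ₗ[F] (Ω → F)} {π : (Ω → F) →ₗ[F] (ι → F)}

namespace PM

theorem pi_perm_psi_pi (H : PM ψ π) (σ : Equiv.Perm Ω) (x : Ω → F) (hx : ∑ i, x i = 0) :
    π (permL σ (ψ (π x))) = π (permL σ x) := by
  obtain ⟨c, hc, h0⟩ := H.adj x hx
  rw [hc, map_add, permL_const, map_add, h0, add_zero]

theorem pmL_mul (H : PM ψ π) (σ τ : Equiv.Perm Ω) (v : ι → F) :
    pmL ψ π (σ * τ) v = pmL ψ π σ (pmL ψ π τ v) := by
  rw [pmL_apply, pmL_apply, pmL_apply, permL_mul]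
  rw [H.pi_perm_psi_pi σ _ (by rw [sum_permL]; exact H.mem v)]

theorem pmL_one (H : PM ψ π) (v : ι → F) : pmL ψ π 1 v = v := by
  rw [pmL_apply, permL_one, H.left]

/-- The linear equivalence attached to a permutation. -/
noncomputable def pmEquiv (H : PM ψ π) (σ : Equiv.Perm Ω) : (ι → F) ≃ₗ[F] (ι → F) where
  toFun := pmL ψ π σ
  invFun := pmL ψ π σ⁻¹
  map_add' := map_add _
  map_smul' := map_smul _
  left_inv v := by
    rw [← H.pmL_mul, inv_mul_cancel, H.pmL_one]
  right_inv v := by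
    rw [← H.pmL_mul, mul_inv_cancel, H.pmL_one]

/-- The homomorphism from the symmetric group to `GL`. -/
noncomputable def hom (H : PM ψ π) : Equiv.Perm Ω →* Matrix.GeneralLinearGroup ι F where
  toFun σ := glOfEquiv (H.pmEquiv σ)
  map_one' := by
    apply Units.ext
    apply Matrix.ext_of_mulVec_single
    intro i
    rw [glOfEquiv_mulVec]
    change pmL ψ π 1 _ = _
    rw [H.pmL_one, Units.val_one, Matrix.one_mulVec]
  map_mul' σ τ := by
    apply Units.ext
    apply Matrix.ext_of_mulVec_single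
    intro i
    rw [glOfEquiv_mulVec, Units.val_mul, ← Matrix.mulVec_mulVec, glOfEquiv_mulVec, glOfEquiv_mulVec]
    exact H.pmL_mul σ τ _

theorem hom_mulVec (H : PM ψ π) (σ : Equiv.Perm Ω) (v : ι → F) :
    ((H.hom σ : Matrix.GeneralLinearGroup ι F) : Matrix ι ι F) *ᵥ v = π (permL σ (ψ v)) := glOfEquiv_mulVec _ _

theorem hom_injective (H : PM ψ π) (h5 : 5 ≤ Fintype.card Ω) : Function.Injective H.hom := by
  classical
  rw [injective_iff_map_eq_one]
  intro σ hσ
  -- `σ` acts trivially on `π`-images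
  have h1 : ∀ x : Ω → F, ∑ i, x i = 0 → π (permL σ x) = π x := by
    intro x hx
    have h2 := H.pi_perm_psi_pi σ x hx
    rw [← h2, ← H.hom_mulVec, hσ, Units.val_one, Matrix.one_mulVec]
  have h2 : ∀ x : Ω → F, ∑ i, x i = 0 → ∃ c : F, permL σ x - x + c • (fun _ => (1 : F)) = 0 := by
    intro x hx
    have hy : ∑ i, (permL σ x - x) i = 0 := by
      simp only [Pi.sub_apply, Finset.sum_sub_distrib, sum_permL, hx, sub_zero]
    obtain ⟨c, hc, -⟩ := H.adj _ hy
    refine ⟨c, ?_⟩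
    rw [← hc, map_sub, h1 x hx, sub_self, map_zero]
  have hcard : ∀ a b c d : Ω, ∃ t, t ≠ a ∧ t ≠ b ∧ t ≠ c ∧ t ≠ d := by
    intro a b c d
    have : ∃ t, t ∉ ({a, b, c, d} : Finset Ω) := by
      by_contra hcon
      push Not at hcon
      have h3 : (Finset.univ : Finset Ω) ⊆ {a, b, c, d} := fun t _ => hcon t
      have h4 := Finset.card_le_card h3
      have h5' : ({a, b, c, d} : Finset Ω).card ≤ 4 := Finset.card_le_four
      rw [Finset.card_univ] at h4
      omega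
    obtain ⟨t, ht⟩ := this
    simp only [Finset.mem_insert, Finset.mem_singleton, not_or] at ht
    exact ⟨t, ht.1, ht.2.1, ht.2.2.1, ht.2.2.2⟩
  ext i
  by_contra hne
  have hne' : σ i ≠ i := fun h => hne (by simp [h])
  obtain ⟨k, hk1, hk2, -, -⟩ := hcard i (σ i) i i
  -- the test vector
  let x : Ω → F := Pi.single i 1 - Pi.single k 1
  have hx : ∑ t, x t = 0 := by
    simp [x, Finset.sum_sub_distrib]
  obtain ⟨c, hc⟩ := h2 x hx
  obtain ⟨t, ht1, ht2, ht3, ht4⟩ := hcard i k (σ i) (σ k)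
  have hxt : ∀ t, t ≠ i → t ≠ k → x t = 0 := by
    intro t h1 h2
    simp [x, Pi.single_apply, h1, h2]
  have ht5 : σ⁻¹ t ≠ i := fun h => ht3 (by rw [← h]; simp)
  have ht6 : σ⁻¹ t ≠ k := fun h => ht4 (by rw [← h]; simp)
  have hc0 : c = 0 := by
    have := congrFun hc t
    simp only [Pi.add_apply, Pi.sub_apply, permL_apply, Pi.smul_apply, smul_eq_mul, mul_one, Pi.zero_apply] at this
    rw [hxt _ ht5 ht6, hxt _ ht1 ht2] at this
    simpa using this
  have := congrFun hc (σ i)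
  have hinv : σ⁻¹ (σ i) = i := by simp
  simp only [Pi.add_apply, Pi.sub_apply, permL_apply, Pi.smul_apply, smul_eq_mul, mul_one, Pi.zero_apply, hc0, add_zero, hinv] at this
  rw [hxt _ hne' (Ne.symm hk2)] at this
  simp [x, Pi.single_apply, Ne.symm hk1] at this

/-- Isometries. -/
theorem hom_mem_isometry (H : PM ψ π) (q : (ι → F) → F) (e : (Ω → F) → F)
    (he : ∀ (σ : Equiv.Perm Ω) x, e (permL σ x) = e x) (h1 : ∀ v, e (ψ v) = q v)
    (h2 : ∀ x : Ω → F, ∑ i, x i = 0 → q (π x) = e x) (σ : Equiv.Perm Ω) :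
    H.hom σ ∈ Cfsg.isometryGroup F q := by
  intro u _
  change q (((H.hom σ : Matrix.GeneralLinearGroup ι F) : Matrix ι ι F) *ᵥ u) = q u
  rw [hom_mulVec, h2 _ (by rw [sum_permL]; exact H.mem u), he, h1]

/-- Forms. -/
theorem hom_form (H : PM ψ π) (f : (ι → F) → (ι → F) → F) (B : (Ω → F) → (Ω → F) → F)
    (he : ∀ (σ : Equiv.Perm Ω) x y, B (permL σ x) (permL σ y) = B x y) (h1 : ∀ u v, B (ψ u) (ψ v) = f u v)
    (h2 : ∀ x y : Ω → F, ∑ i, x i = 0 → ∑ i, y i = 0 → f (π x) (π y) = B x y) (σ : Equiv.Perm Ω) (u v : ι → F) :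
    f (((H.hom σ : Matrix.GeneralLinearGroup ι F) : Matrix ι ι F) *ᵥ u)
      (((H.hom σ : Matrix.GeneralLinearGroup ι F) : Matrix ι ι F) *ᵥ v) = f u v := by
  rw [hom_mulVec, hom_mulVec, h2 _ _ (by rw [sum_permL]; exact H.mem u) (by rw [sum_permL]; exact H.mem v), he, h1]

end PM

end PM

/-- An injective hom from `Perm (Fin n)` to a group of order `n!` is an isomorphism. -/
theorem nonempty_mulEquiv_of_injective_perm {G : Type*} [Group G] [Finite G] (n : ℕ)
    (φ : Equiv.Perm (Fin n) →* G) (hφ : Function.Injective φ) (hG : Nat.card G = n.factorial) :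
    Nonempty (G ≃* Equiv.Perm (Fin n)) := by
  have hc : Nat.card (Equiv.Perm (Fin n)) = Nat.card G := by
    rw [hG, Nat.card_eq_fintype_card (α := Equiv.Perm (Fin n)), Fintype.card_perm, Fintype.card_fin]
  exact ⟨(MulEquiv.ofBijective φ ((Nat.bijective_iff_injective_and_card φ).2 ⟨hφ, hc⟩)).symm⟩

end Cfsg.Agent.Lib.Classical
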