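import Mathlib
import Cfsg.Prelude.Def_ClassicalGeometry
import Cfsg.Agent.Lib.Classical.PermModel
import Cfsg.Agent.Lib.Classical.AltBasis
import Cfsg.Agent.Lib.Classical.Symp

/-! The symmetric group of degree `2n` in the symplectic group `Sp_{2n-2}` in characteristic two. -/

set_option autoImplicit false
set_option linter.unusedSimpArgs false
set_option linter.unusedVariables false
set_option linter.unusedSectionVars false
set_option linter.style.haveILetI false

namespace Cfsg.Agent.Lib.Classical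

open Matrix Module Cfsg.Agent.Lib.KnownSimple

variable {Ω : Type} [Fintype Ω] [DecidableEq Ω] {F : Type*} [Field F]

/-- The sum functional. -/
def sumL (Ω : Type) [Fintype Ω] (F : Type*) [Field F] : (Ω → F) →ₗ[F] F where
  toFun x := ∑ i, x i
  map_add' x y := by simp [Finset.sum_add_distrib]
  map_smul' c x := by simp [Finset.mul_sum]

theorem sumL_apply (x : Ω → F) : sumL Ω F x = ∑ i, x i := rfl

/-- The dot product as a bilinear form. -/
noncomputable def dotBil (Ω : Type) [Fintype Ω] [DecidableEq Ω] (F : Type*) [Field F] : LinearMap.BilinForm F (Ω → F) :=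
  LinearMap.mk₂ F (fun x y => x ⬝ᵥ y) (fun x y z => add_dotProduct x y z) (fun c x y => smul_dotProduct c x y)
    (fun x y z => dotProduct_add x y z) (fun c x y => dotProduct_smul c x y)

theorem dotBil_apply (x y : Ω → F) : dotBil Ω F x y = x ⬝ᵥ y := rfl

theorem finrank_sumL_ker [Nonempty Ω] : finrank F (LinearMap.ker (sumL Ω F)) + 1 = Fintype.card Ω := by
  classical
  have h1 := LinearMap.finrank_range_add_finrank_ker (sumL Ω F)
  have hs : Function.Surjective (sumL Ω F) := by
    intro c
    obtain ⟨i0⟩ := ‹Nonempty Ω›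
    refine ⟨Pi.single i0 c, ?_⟩
    simp [sumL_apply]
  rw [LinearMap.range_eq_top.2 hs] at h1
  simp only [finrank_top, Module.finrank_self, Module.finrank_fintype_fun_eq_card] at h1
  omega

/-- Radical of the dot product on sum-zero vectors in characteristic two. -/
theorem radical_const (h2 : (2 : F) = 0) (z : Ω → F) (hz : ∀ y : Ω → F, ∑ i, y i = 0 → z ⬝ᵥ y = 0) (i j : Ω) :
    z i = z j := by
  classical
  by_cases hij : i = j
  · rw [hij]
  have := hz (Pi.single i 1 + Pi.single j 1) (by
    simp [Finset.sum_add_distrib]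
    rw [← h2]
    norm_num)
  simp only [dotProduct_add, dotProduct_single, mul_one] at this
  have h3 : z i + z i = 0 := by
    rw [← two_mul, h2, zero_mul]
  have h4 : z j = - z i := by
    linear_combination this
  rw [h4, eq_neg_iff_add_eq_zero]
  exact h3

theorem exists_symp_model (h2 : (2 : F) = 0) (m : ℕ) (hcard : Fintype.card Ω = 2 * (m + 1)) :
    ∃ (ψ : (Fin m ⊕ Fin m → F) →ₗ[F] (Ω → F)) (π : (Ω → F) →ₗ[F] (Fin m ⊕ Fin m → F)), PM ψ π ∧
      (∀ u v, (ψ u) ⬝ᵥ (ψ v) = Cfsg.sympForm m F u v) ∧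
      (∀ x y : Ω → F, ∑ i, x i = 0 → ∑ i, y i = 0 → Cfsg.sympForm m F (π x) (π y) = x ⬝ᵥ y) := by
  classical
  have hne : Nonempty Ω := by
    rw [← Fintype.card_pos_iff]
    omega
  have hch : CharP F 2 := CharTwo.of_one_ne_zero_of_two_eq_zero one_ne_zero h2
  let E := LinearMap.ker (sumL Ω F)
  have memE : ∀ x : Ω → F, x ∈ E ↔ ∑ i, x i = 0 := fun x => Iff.rfl
  let B : LinearMap.BilinForm F E := (dotBil Ω F).restrict E
  have hBapp : ∀ x y : E, B x y = (x : Ω → F) ⬝ᵥ (y : Ω → F) := fun x y => rfl
  have hA : B.IsAlt := by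
    intro x
    rw [hBapp]
    have h3 : (∑ i, (x : Ω → F) i) ^ 2 = 0 := by
      rw [(memE _).1 x.2]
      simp
    rw [CharTwo.sum_sq] at h3
    rw [← h3]
    simp [dotProduct, sq]
  have hfin : finrank F E + 1 = 2 * (m + 1) := by
    rw [← hcard]
    exact finrank_sumL_ker
  obtain ⟨m', k, b, hxy, hxx, hyy, hrad⟩ := exists_alt_basis (F := F) _ E B hA rfl
  have hb := Module.finrank_eq_card_basis b
  simp only [Fintype.card_sum, Fintype.card_fin] at hb
  -- constants
  have hone : (fun _ => (1 : F)) ∈ E := by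
    rw [memE]
    simp only [Finset.sum_const, Finset.card_univ, hcard, nsmul_eq_mul, mul_one]
    push_cast
    rw [h2, zero_mul]
  -- elements orthogonal to `E` are constant
  have hconst : ∀ z : Ω → F, (∀ y : E, z ⬝ᵥ (y : Ω → F) = 0) → ∃ c : F, z = c • (fun _ => (1 : F)) := by
    intro z hz
    obtain ⟨i0⟩ := hne
    refine ⟨z i0, ?_⟩
    funext j
    simp only [Pi.smul_apply, smul_eq_mul, mul_one]
    exact radical_const h2 z (fun y hy => hz ⟨y, hy⟩) j i0
  -- `k ≤ 1`
  have hk : k ≤ 1 := by
    by_contra hk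
    push Not at hk
    let j1 : Fin k := ⟨0, by omega⟩
    let j2 : Fin k := ⟨1, by omega⟩
    have hj : j1 ≠ j2 := by
      intro h
      have := congrArg Fin.val h
      simp [j1, j2] at this
    have hc : ∀ j, ∃ c : F, ((b (Sum.inr j) : E) : Ω → F) = c • (fun _ => (1 : F)) := by
      intro j
      exact hconst _ (fun y => hrad j y)
    obtain ⟨c1, hc1⟩ := hc j1
    obtain ⟨c2, hc2⟩ := hc j2
    have hrel : c2 • b (Sum.inr j1) = c1 • b (Sum.inr j2) := by
      apply Subtype.ext
      simp only [Submodule.coe_smul, hc1, hc2, smul_smul, mul_comm]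
    have h3 := congrArg (fun w => b.repr w (Sum.inr j1)) hrel
    simp only [map_smul, Finsupp.smul_apply, Module.Basis.repr_self, smul_eq_mul, Finsupp.single_apply] at h3
    simp only [Sum.inr.injEq, hj.symm, if_false, if_true, mul_zero, mul_one] at h3
    have hne2 : ((b (Sum.inr j2) : E) : Ω → F) ≠ 0 := by
      intro h
      exact b.ne_zero (Sum.inr j2) (Subtype.ext h)
    apply hne2
    rw [hc2, h3, zero_smul]
  obtain rfl : k = 1 := by omega
  obtain rfl : m' = m := by omega
  -- the vectors
  let xx : Fin m' → (Ω → F) := fun i => (b (Sum.inl (Sum.inl i)) : E)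
  let yy : Fin m' → (Ω → F) := fun i => (b (Sum.inl (Sum.inr i)) : E)
  have hxE : ∀ i, ∑ t, xx i t = 0 := fun i => (b (Sum.inl (Sum.inl i))).2
  have hyE : ∀ i, ∑ t, yy i t = 0 := fun i => (b (Sum.inl (Sum.inr i))).2
  have gxy : ∀ i j, xx i ⬝ᵥ yy j = if i = j then 1 else 0 := fun i j => hxy i j
  have gxx : ∀ i j, xx i ⬝ᵥ xx j = 0 := fun i j => hxx i j
  have gyy : ∀ i j, yy i ⬝ᵥ yy j = 0 := fun i j => hyy i j
  let ψ : (Fin m' ⊕ Fin m' → F) →ₗ[F] (Ω → F) :=
    { toFun := fun u => ∑ i, (u (Sum.inl i) • xx i + u (Sum.inr i) • yy i)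
      map_add' := by
        intro u v
        rw [← Finset.sum_add_distrib]
        apply Finset.sum_congr rfl
        intro i _
        simp only [Pi.add_apply, add_smul]
        abel
      map_smul' := by
        intro c u
        simp only [RingHom.id_apply, Finset.smul_sum]
        apply Finset.sum_congr rfl
        intro i _
        simp only [Pi.smul_apply, smul_add, smul_smul, smul_eq_mul] }
  let π : (Ω → F) →ₗ[F] (Fin m' ⊕ Fin m' → F) :=
    { toFun := fun x j => Sum.elim (fun i => x ⬝ᵥ yy i) (fun i => x ⬝ᵥ xx i) j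
      map_add' := by
        intro x y
        funext j
        rcases j with i | i <;> simp [add_dotProduct]
      map_smul' := by
        intro c x
        funext j
        rcases j with i | i <;> simp [smul_dotProduct] }
  have hψ : ∀ u, ψ u = ∑ i, (u (Sum.inl i) • xx i + u (Sum.inr i) • yy i) := fun u => rfl
  have hπl : ∀ x i, π x (Sum.inl i) = x ⬝ᵥ yy i := fun x i => rfl
  have hπr : ∀ x i, π x (Sum.inr i) = x ⬝ᵥ xx i := fun x i => rfl
  have hleft : ∀ v, π (ψ v) = v := by
    intro v
    funext j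
    rcases j with i | i
    · rw [hπl, hψ, sum_dotProduct]
      simp only [add_dotProduct, smul_dotProduct, gxy, gyy, smul_eq_mul, mul_ite, mul_one, mul_zero, add_zero, Finset.sum_ite_eq', Finset.mem_univ, if_true]
    · rw [hπr, hψ, sum_dotProduct]
      simp only [add_dotProduct, smul_dotProduct, gxx, dotProduct_comm (yy _) (xx _), gxy, smul_eq_mul, mul_ite, mul_one, mul_zero, zero_add, add_zero]
      simp
  have hmem : ∀ v, ∑ t, ψ v t = 0 := by
    intro v
    rw [hψ]
    simp only [Finset.sum_apply, Pi.add_apply, Pi.smul_apply, smul_eq_mul]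
    rw [Finset.sum_comm]
    apply Finset.sum_eq_zero
    intro i _
    rw [Finset.sum_add_distrib, ← Finset.mul_sum, ← Finset.mul_sum, hxE, hyE, mul_zero, mul_zero, add_zero]
  have hconstπ : ∀ c : F, π (c • fun _ => 1) = 0 := by
    intro c
    rw [map_smul]
    have : π (fun _ => (1 : F)) = 0 := by
      funext j
      rcases j with i | i
      · rw [hπl]
        simp [dotProduct, hyE]
      · rw [hπr]
        simp [dotProduct, hxE]
    rw [this, smul_zero]
  have hadj : ∀ x : Ω → F, ∑ i, x i = 0 → ∃ c : F, ψ (π x) = x + c • (fun _ => 1) ∧ π (c • fun _ => 1) = 0 := by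
    intro x hx
    have hz : x - ψ (π x) ∈ E := by
      rw [memE]
      simp only [Pi.sub_apply, Finset.sum_sub_distrib, hx, hmem, sub_zero]
    -- `z` is orthogonal to `E`
    let z : E := ⟨x - ψ (π x), hz⟩
    have hzB : ∀ y : E, B z y = 0 := by
      intro y
      have : B z = 0 := by
        apply b.ext
        intro idx
        rcases idx with (i | i) | j
        · change (x - ψ (π x)) ⬝ᵥ xx i = 0
          rw [sub_dotProduct, ← hπr, ← hπr, hleft, sub_self]
        · change (x - ψ (π x)) ⬝ᵥ yy i = 0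
          rw [sub_dotProduct, ← hπl, ← hπl, hleft, sub_self]
        · have := hrad j z
          change (b (Sum.inr j) : E).1 ⬝ᵥ z.1 = 0 at this
          change z.1 ⬝ᵥ (b (Sum.inr j) : E).1 = 0
          rwa [dotProduct_comm]
      rw [this]
      rfl
    obtain ⟨c, hc⟩ := hconst (x - ψ (π x)) hzB
    refine ⟨-c, ?_, hconstπ _⟩
    rw [neg_smul, ← hc]
    abel
  have hPM : PM ψ π := ⟨hleft, hmem, hadj⟩
  have hsymp : ∀ u v : Fin m' ⊕ Fin m' → F, Cfsg.sympForm m' F u v =
      ∑ i, (u (Sum.inl i) * v (Sum.inr i) + u (Sum.inr i) * v (Sum.inl i)) := by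
    intro u v
    rw [sympForm_apply]
    apply Finset.sum_congr rfl
    intro i _
    have e : ∀ a : F, -a = a := fun a => by
      rw [neg_eq_iff_add_eq_zero, ← two_mul, h2, zero_mul]
    rw [sub_eq_add_neg, e, add_comm]
  have hstar : ∀ u w, ψ u ⬝ᵥ w = Cfsg.sympForm m' F u (π w) := by
    intro u w
    rw [hsymp, hψ, sum_dotProduct]
    apply Finset.sum_congr rfl
    intro i _
    rw [add_dotProduct, smul_dotProduct, smul_dotProduct, hπr, hπl, smul_eq_mul, smul_eq_mul,
      dotProduct_comm (xx i) w, dotProduct_comm (yy i) w]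
  refine ⟨ψ, π, hPM, ?_, ?_⟩
  · intro u v
    rw [hstar, hleft]
  · intro x y hx hy
    obtain ⟨c, hc, -⟩ := hadj x hx
    rw [← hstar, hc, add_dotProduct, smul_dotProduct]
    have : (fun _ => (1 : F)) ⬝ᵥ y = 0 := by
      simp [dotProduct, hy]
    rw [this, smul_zero, add_zero]

/-- The symmetric group of degree `2(m+1)` embeds in `Sp_{2m}` in characteristic two, for `m ≥ 2`. -/
theorem exists_sp_perm_hom (h2 : (2 : F) = 0) (m : ℕ) (hm : 2 ≤ m) (hcard : Fintype.card Ω = 2 * (m + 1)) :
    ∃ f : Equiv.Perm Ω →* Matrix.symplecticGroup (Fin m) F, Function.Injective f := by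
  obtain ⟨ψ, π, H, h3, h4⟩ := exists_symp_model (F := F) (Ω := Ω) h2 m hcard
  have hform := H.hom_form (Cfsg.sympForm m F) (fun x y => x ⬝ᵥ y)
    (by
      intro σ x y
      exact Equiv.sum_comp σ⁻¹ (fun i => x i * y i)) h3 h4
  let f : Equiv.Perm Ω →* Matrix.symplecticGroup (Fin m) F :=
    { toFun := fun σ => ⟨((H.hom σ : Matrix.GeneralLinearGroup (Fin m ⊕ Fin m) F) : Matrix _ _ F),
        mem_sp_of_preserves (hform σ)⟩
      map_one' := by
        apply Subtype.ext
        simp
      map_mul' := by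
        intro σ τ
        apply Subtype.ext
        simp }
  refine ⟨f, ?_⟩
  intro σ τ h
  apply H.hom_injective (by omega)
  apply Units.ext
  exact congrArg Subtype.val h

end Cfsg.Agent.Lib.Classical
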