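import Mathlib
import Cfsg.Agent.Lib.Classical.QuadWitt
import Cfsg.Agent.Lib.Classical.AltWitt
import Cfsg.Agent.Lib.Classical.AltBasis

/-! Involutions in characteristic two: the Wall form of an involution, its normal form over a finite
field, and conjugacy from the Wall form, both for a quadratic form and for an alternating form. -/

set_option autoImplicit false
set_option linter.unusedSimpArgs false
set_option linter.unusedVariables false
set_option linter.unusedSectionVars false
set_option linter.style.haveILetI false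

namespace Cfsg.Agent.Lib.Classical.InvolEven

open Module

universe u v

variable {F : Type u} [Field F]

section normal

variable [Fintype F] [CharP F 2]

omit [Fintype F] in
theorem two_eq_zero' : (2 : F) = 0 := CharP.cast_eq_zero F 2

theorem exists_sqrt (c : F) : ∃ r : F, r * r = c := by
  have h2 : ringChar F = 2 := ringChar.eq F 2
  obtain ⟨r, hr⟩ := FiniteField.isSquare_of_char_two h2 c
  exact ⟨r, hr.symm⟩

/-- A non-alternating nondegenerate symmetric bilinear form over a finite field of characteristic two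
has an orthonormal family of the right size. -/
theorem exists_orthonormal (n : ℕ) : ∀ (W : Type v) [AddCommGroup W] [Module F W] [FiniteDimensional F W]
    (χ : LinearMap.BilinForm F W), (∀ x y, χ x y = χ y x) → χ.Nondegenerate → finrank F W = n → (∃ w, χ w w ≠ 0) →
    ∃ u : Fin n → W, ∀ i j, χ (u i) (u j) = if i = j then 1 else 0 := by
  induction n with
  | zero =>
    intro W _ _ _ χ _ _ _ _
    exact ⟨fun i => i.elim0, fun i => i.elim0⟩
  | succ n ih =>
    intro W _ _ _ χ hS hnd hn ⟨w, hw⟩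
    have h2 : (2 : F) = 0 := two_eq_zero'
    have hrefl : χ.IsRefl := fun x y h => by rw [hS, h]
    have hadd : ∀ x y : W, χ (x + y) (x + y) = χ x x + χ y y := by
      intro x y
      simp only [map_add, LinearMap.add_apply]
      rw [hS y x]
      linear_combination (χ x y) * h2
    obtain ⟨r, hr⟩ := exists_sqrt (χ w w)
    have hr0 : r ≠ 0 := fun h => hw (by rw [← hr, h, zero_mul])
    -- the perpendicular of a unit vector
    have hperp : ∀ e : W, χ e e = 1 → finrank F (χ.orthogonal (F ∙ e)) = n := by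
      intro e he
      have he0 : e ≠ 0 := fun h => by
        rw [h] at he
        simp at he
      rw [LinearMap.BilinForm.finrank_orthogonal hnd, finrank_span_singleton he0, hn]
      rfl
    have hnd' : ∀ e : W, χ e e = 1 → (χ.restrict (χ.orthogonal (F ∙ e))).Nondegenerate := by
      intro e he
      exact LinearMap.BilinForm.restrict_nondegenerate_orthogonal_spanSingleton χ hnd hrefl (by rw [he]; exact one_ne_zero)
    let e₀ : W := r⁻¹ • w
    have he₀ : χ e₀ e₀ = 1 := by
      simp only [e₀, map_smul, LinearMap.smul_apply, smul_eq_mul, ← hr]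
      field_simp
    -- choose the unit vector well
    have hgood : ∃ e : W, χ e e = 1 ∧ (n = 0 ∨ ∃ x ∈ χ.orthogonal (F ∙ e), χ x x ≠ 0) := by
      by_cases hn0 : n = 0
      · exact ⟨e₀, he₀, Or.inl hn0⟩
      by_cases hex : ∃ x ∈ χ.orthogonal (F ∙ e₀), χ x x ≠ 0
      · exact ⟨e₀, he₀, Or.inr hex⟩
      push Not at hex
      -- the perpendicular is alternating; move the unit vector
      have hdim := hperp e₀ he₀
      have hnt : Nontrivial ↥(χ.orthogonal (F ∙ e₀)) := by
        apply Module.nontrivial_of_finrank_pos (R := F)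
        omega
      obtain ⟨⟨a, ha⟩, ha0⟩ := exists_ne (0 : ↥(χ.orthogonal (F ∙ e₀)))
      have ha0' : a ≠ 0 := fun h => ha0 (Subtype.ext h)
      obtain ⟨⟨b, hb⟩, hab⟩ : ∃ b : ↥(χ.orthogonal (F ∙ e₀)), χ a b = 1 := by
        have h3 := hnd' e₀ he₀
        by_contra hcon
        push Not at hcon
        apply ha0
        apply h3.1
        intro y
        by_contra hy
        apply hcon ((χ a y)⁻¹ • y)
        change χ a ((χ a y)⁻¹ • (y : W)) = 1
        rw [map_smul, smul_eq_mul]
        exact inv_mul_cancel₀ hy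
      have hmem : ∀ x : W, x ∈ χ.orthogonal (F ∙ e₀) → χ e₀ x = 0 := fun x hx => hx e₀ (Submodule.mem_span_singleton_self _)
      have hea := hmem a ha
      have heb := hmem b hb
      refine ⟨e₀ + a, ?_, Or.inr ⟨e₀ + b, ?_, ?_⟩⟩
      · rw [hadd, he₀, hex a ha, add_zero]
      · intro z hz
        obtain ⟨c, rfl⟩ := Submodule.mem_span_singleton.1 hz
        change χ (c • (e₀ + a)) (e₀ + b) = 0
        simp only [map_smul, map_add, LinearMap.smul_apply, LinearMap.add_apply, smul_eq_mul]
        rw [he₀, heb, hS a e₀, hea, hab]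
        linear_combination c * h2
      · rw [hadd, he₀, hex b hb, add_zero]
        exact one_ne_zero
    obtain ⟨e, he, hgood'⟩ := hgood
    rcases hgood' with hn0 | ⟨x, hx, hxx⟩
    · subst hn0
      refine ⟨fun _ => e, fun i j => ?_⟩
      have hij : i = j := Fin.ext (by omega)
      simp [he, hij]
    · obtain ⟨u', hu'⟩ := ih ↥(χ.orthogonal (F ∙ e)) (χ.restrict (χ.orthogonal (F ∙ e))) (fun a b => hS _ _) (hnd' e he) (hperp e he) ⟨⟨x, hx⟩, hxx⟩
      have hmem : ∀ j, χ e (u' j : W) = 0 := fun j => (u' j).2 e (Submodule.mem_span_singleton_self _)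
      refine ⟨Fin.cons e (fun j => (u' j : W)), ?_⟩
      intro i j
      refine Fin.cases ?_ (fun i' => ?_) i
      · refine Fin.cases ?_ (fun j' => ?_) j
        · simpa using he
        · simp only [Fin.cons_zero, Fin.cons_succ]
          rw [hmem]
          simp [(Fin.succ_ne_zero j').symm]
      · refine Fin.cases ?_ (fun j' => ?_) j
        · simp only [Fin.cons_zero, Fin.cons_succ]
          rw [hS, hmem]
          simp [Fin.succ_ne_zero i']
        · simp only [Fin.cons_succ, Fin.succ_inj]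
          exact hu' i' j'

omit [Fintype F] [CharP F 2] in
/-- A nondegenerate alternating form has a symplectic family. -/
theorem exists_alt_family {W : Type v} [AddCommGroup W] [Module F W] [FiniteDimensional F W]
    (χ : LinearMap.BilinForm F W) (hA : χ.IsAlt) (hnd : χ.Nondegenerate) :
    ∃ (k : ℕ) (u : Fin k ⊕ Fin k → W), finrank F W = 2 * k ∧
      (∀ i j : Fin k, χ (u (Sum.inl i)) (u (Sum.inr j)) = if i = j then 1 else 0) ∧
      (∀ i j : Fin k, χ (u (Sum.inl i)) (u (Sum.inl j)) = 0) ∧
      (∀ i j : Fin k, χ (u (Sum.inr i)) (u (Sum.inr j)) = 0) := by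
  obtain ⟨k, l, b, h1, h2, h3, h4⟩ := Cfsg.Agent.Lib.Classical.exists_alt_basis (finrank F W) W χ hA rfl
  have hl : l = 0 := by
    by_contra hl
    have hl' : 0 < l := Nat.pos_of_ne_zero hl
    have h5 := hnd.1 (b (Sum.inr ⟨0, hl'⟩)) (h4 _)
    exact b.ne_zero _ h5
  subst hl
  refine ⟨k, fun i => b (Sum.inl i), ?_, h1, h2, h3⟩
  rw [Module.finrank_eq_card_basis b]
  simp
  omega

end normal

section wall

variable {V : Type v} [AddCommGroup V] [Module F V] {B : LinearMap.BilinForm F V} {T T' : V →ₗ[F] V}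

/-- `T - 1`. -/
abbrev nn (T : V →ₗ[F] V) : V →ₗ[F] V := T - LinearMap.id

theorem nn_apply' (T : V →ₗ[F] V) (x : V) : nn T x = T x - x := rfl

/-- A Wall frame: a family `u` such that the `(T - 1) u i` span the image of `T - 1`, with given Gram matrix. -/
structure IsFrame (B : LinearMap.BilinForm F V) (T : V →ₗ[F] V) {κ : Type} [Fintype κ] [DecidableEq κ] (E : Matrix κ κ F) (u : κ → V) : Prop where
  gram : ∀ i j, B (nn T (u i)) (u j) = E i j
  span : LinearMap.range (nn T) ≤ Submodule.span F (Set.range (fun i => nn T (u i)))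

theorem nn_left (hT : ∀ x, T (T x) = x) (hB : ∀ x y, B (T x) (T y) = B x y) (x y : V) :
    B (nn T x) y = B x (nn T y) := by
  have h1 : B (T x) y = B x (T y) := by
    have := hB (T x) y
    rw [hT] at this
    exact this.symm
  rw [nn_apply', nn_apply', map_sub, LinearMap.sub_apply, map_sub, h1]

theorem nn_nn [CharP F 2] (hT : ∀ x, T (T x) = x) (x : V) : nn T (nn T x) = 0 := by
  simp only [nn_apply', map_sub, hT]
  have h1 : (2 : F) • (x - T x) = 0 := by rw [two_eq_zero', zero_smul]
  rw [two_smul] at h1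
  rw [← h1]
  abel

theorem bil_range [CharP F 2] (hT : ∀ x, T (T x) = x) (hB : ∀ x y, B (T x) (T y) = B x y) (x y : V) : B (nn T x) (nn T y) = 0 := by
  rw [nn_left hT hB, nn_nn hT, map_zero]

theorem li_of_gram {κ : Type} [Fintype κ] [DecidableEq κ] {E : Matrix κ κ F} (hE : E * E = 1) {w u : κ → V} (h : ∀ i j, B (w i) (u j) = E i j) :
    LinearIndependent F w := by
  rw [Fintype.linearIndependent_iff]
  intro c hc k
  have h1 : Matrix.vecMul c E = 0 := by
    funext j
    have h3 := congrArg (fun z => B z (u j)) hc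
    simp only [map_sum, map_smul, LinearMap.sum_apply, LinearMap.smul_apply, smul_eq_mul, h, map_zero, LinearMap.zero_apply] at h3
    simpa [Matrix.vecMul, dotProduct] using h3
  have h2 : c = 0 := by
    have h3 := congrArg (fun z => Matrix.vecMul z E) h1
    simpa [Matrix.vecMul_vecMul, hE] using h3
  rw [h2]
  rfl

section exist

variable [FiniteDimensional F V] [CharP F 2] (hS : ∀ x y, B x y = B y x) (hnd : B.Nondegenerate)
  (hT : ∀ x, T (T x) = x) (hB : ∀ x y, B (T x) (T y) = B x y)

omit [CharP F 2] in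
include hS hnd hT hB in
/-- The frame of a family on a complement of the kernel. -/
theorem exists_compl_form : ∃ (U : Submodule F V) (χ : LinearMap.BilinForm F U), IsCompl U (LinearMap.ker (nn T)) ∧ (∀ a b : U, χ a b = B (nn T a) b) ∧
    (∀ a b, χ a b = χ b a) ∧ χ.Nondegenerate ∧ finrank F U = finrank F (LinearMap.range (nn T)) := by
  obtain ⟨U, hU⟩ := Submodule.exists_isCompl (LinearMap.ker (nn T))
  have hU' := hU.symm
  let χ : LinearMap.BilinForm F U := LinearMap.BilinForm.restrict (LinearMap.BilinForm.comp B (nn T) LinearMap.id) U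
  have hχ : ∀ a b : U, χ a b = B (nn T a) b := fun a b => rfl
  have hsym : ∀ a b, χ a b = χ b a := by
    intro a b
    rw [hχ, hχ, nn_left hT hB, hS]
  have hsl : χ.SeparatingLeft := by
    intro a ha
    have h1 : nn T (a : V) = 0 := by
      apply hnd.1
      intro y
      obtain ⟨b, k, hb, hk, rfl⟩ : ∃ b k, b ∈ U ∧ k ∈ LinearMap.ker (nn T) ∧ b + k = y := by
        have : y ∈ U ⊔ LinearMap.ker (nn T) := by
          rw [hU'.sup_eq_top]
          exact Submodule.mem_top
        obtain ⟨b, hb, k, hk, rfl⟩ := Submodule.mem_sup.1 this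
        exact ⟨b, k, hb, hk, rfl⟩
      rw [map_add, nn_left hT hB (a : V) k, LinearMap.mem_ker.1 hk, map_zero, add_zero]
      exact ha ⟨b, hb⟩
    have h2 : (a : V) ∈ U ⊓ LinearMap.ker (nn T) := ⟨a.2, h1⟩
    rw [hU'.inf_eq_bot] at h2
    exact Subtype.ext ((Submodule.mem_bot F).1 h2)
  have hsr : χ.SeparatingRight := by
    intro a ha
    apply hsl
    intro b
    rw [hsym]
    exact ha b
  refine ⟨U, χ, hU', hχ, hsym, ⟨hsl, hsr⟩, ?_⟩
  have h1 := LinearMap.finrank_range_add_finrank_ker (nn T)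
  have h2 := Submodule.finrank_add_eq_of_isCompl hU'
  omega

omit [CharP F 2] in
/-- A family of the right size on a complement of the kernel gives a frame. -/
theorem frame_of_family {κ : Type} [Fintype κ] [DecidableEq κ] {E : Matrix κ κ F} (hE : E * E = 1) {U : Submodule F V} (χ : LinearMap.BilinForm F U)
    (hU : IsCompl U (LinearMap.ker (nn T))) (hχ : ∀ a b : U, χ a b = B (nn T a) b) (u : κ → U) (hu : ∀ i j, χ (u i) (u j) = E i j)
    (hcard : Fintype.card κ = finrank F U) : IsFrame B T E (fun i => (u i : V)) := by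
  refine ⟨fun i j => ?_, ?_⟩
  · rw [← hχ]
    exact hu i j
  · have hli : LinearIndependent F u := li_of_gram (B := χ) hE hu
    have hsp := hli.span_eq_top_of_card_eq_finrank' hcard
    rintro _ ⟨x, rfl⟩
    have : x ∈ U ⊔ LinearMap.ker (nn T) := by
      rw [hU.sup_eq_top]
      exact Submodule.mem_top
    obtain ⟨a, ha, k, hk, rfl⟩ := Submodule.mem_sup.1 this
    rw [map_add, LinearMap.mem_ker.1 hk, add_zero]
    have h1 : (⟨a, ha⟩ : U) ∈ Submodule.span F (Set.range u) := by
      rw [hsp]
      exact Submodule.mem_top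
    obtain ⟨c, hc⟩ := (Submodule.mem_span_range_iff_exists_fun F).1 h1
    have h3 : a = ∑ i, c i • (u i : V) := by
      have := congrArg Subtype.val hc
      simpa using this.symm
    rw [h3, map_sum]
    refine Submodule.sum_mem _ (fun i _ => ?_)
    rw [map_smul]
    exact Submodule.smul_mem _ _ (Submodule.subset_span ⟨i, rfl⟩)

include hS hnd hT hB in
/-- The frame in the non-alternating case. -/
theorem exists_frame_nonalt [Fintype F] (hna : ∃ x, B (nn T x) x ≠ 0) :
    ∃ u : Fin (finrank F (LinearMap.range (nn T))) → V, IsFrame B T (1 : Matrix _ _ F) u := by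
  obtain ⟨U, χ, hU, hχ, hsym, hχnd, hfin⟩ := exists_compl_form hS hnd hT hB
  have hna' : ∃ w, χ w w ≠ 0 := by
    obtain ⟨x, hx⟩ := hna
    have : x ∈ U ⊔ LinearMap.ker (nn T) := by
      rw [hU.sup_eq_top]
      exact Submodule.mem_top
    obtain ⟨a, ha, k, hk, rfl⟩ := Submodule.mem_sup.1 this
    refine ⟨⟨a, ha⟩, ?_⟩
    rw [hχ]
    have e : nn T (a + k) = nn T a := by rw [map_add, LinearMap.mem_ker.1 hk, add_zero]
    rw [e, map_add, nn_left hT hB a k, LinearMap.mem_ker.1 hk, map_zero, add_zero] at hx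
    exact hx
  obtain ⟨u, hu⟩ := exists_orthonormal _ U χ hsym hχnd hfin hna'
  exact ⟨_, frame_of_family (Matrix.one_mul 1) χ hU hχ u (fun i j => by rw [hu, Matrix.one_apply]) (by rw [Fintype.card_fin, hfin])⟩

/-- The matrix of a hyperbolic Gram form. -/
abbrev hypE (k : ℕ) : Matrix (Fin k ⊕ Fin k) (Fin k ⊕ Fin k) F := Matrix.fromBlocks 0 1 1 0

omit [FiniteDimensional F V] [CharP F 2] in
theorem hypE_sq (k : ℕ) : hypE (F := F) k * hypE k = 1 := by
  rw [hypE, Matrix.fromBlocks_multiply]
  simp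

include hS hnd hT hB in
/-- The frame in the alternating case. -/
theorem exists_frame_alt (ha : ∀ x, B (nn T x) x = 0) :
    ∃ (k : ℕ) (u : Fin k ⊕ Fin k → V), finrank F (LinearMap.range (nn T)) = 2 * k ∧ IsFrame B T (hypE k) u := by
  obtain ⟨U, χ, hU, hχ, hsym, hχnd, hfin⟩ := exists_compl_form hS hnd hT hB
  have hA : χ.IsAlt := by
    intro a
    rw [hχ]
    exact ha a
  obtain ⟨k, u, h1, h2, h3, h4⟩ := exists_alt_family χ hA hχnd
  refine ⟨k, _, by rw [← hfin, h1], frame_of_family (hypE_sq k) χ hU hχ u ?_ (by rw [h1]; simp; omega)⟩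
  rintro (i | i) (j | j)
  · rw [h3]
    simp
  · rw [h2]
    simp [Matrix.one_apply]
  · rw [hsym, h2]
    simp [Matrix.one_apply, eq_comm]
  · rw [h4]
    simp

end exist

section conj

/-- Frames with the same Gram matrix give an intertwiner. -/
theorem intertwine {κ : Type} [Fintype κ] [DecidableEq κ] {E : Matrix κ κ F} (hE : E * E = 1)
    (hT : ∀ x, T (T x) = x) (hB : ∀ x y, B (T x) (T y) = B x y) (hT' : ∀ x, T' (T' x) = x) (hB' : ∀ x y, B (T' x) (T' y) = B x y)
    (g : V →ₗ[F] V) (hg : ∀ x y, B (g x) (g y) = B x y) {u u' : κ → V} (hf : IsFrame B T E u) (hf' : IsFrame B T' E u')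
    (hgu : ∀ i, g (nn T (u i)) = nn T' (u' i)) (x : V) : g (T x) = T' (g x) := by
  have h1 : nn T x ∈ Submodule.span F (Set.range (fun i => nn T (u i))) := hf.span ⟨x, rfl⟩
  have h2 : nn T' (g x) ∈ Submodule.span F (Set.range (fun i => nn T' (u' i))) := hf'.span ⟨_, rfl⟩
  obtain ⟨a, ha⟩ := (Submodule.mem_span_range_iff_exists_fun F).1 h1
  obtain ⟨b, hb⟩ := (Submodule.mem_span_range_iff_exists_fun F).1 h2
  have h3 : ∀ j, ∑ i, a i * E i j = ∑ i, b i * E i j := by
    intro j
    have h4 : B (nn T x) (u j) = ∑ i, a i * E i j := by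
      rw [← ha]
      simp only [map_sum, map_smul, LinearMap.sum_apply, LinearMap.smul_apply, smul_eq_mul, hf.gram]
    have h5 : B (nn T' (g x)) (u' j) = ∑ i, b i * E i j := by
      rw [← hb]
      simp only [map_sum, map_smul, LinearMap.sum_apply, LinearMap.smul_apply, smul_eq_mul, hf'.gram]
    rw [← h4, ← h5, nn_left hT hB, nn_left hT' hB', ← hgu, hg]
  have h6 : a = b := by
    have h7 : Matrix.vecMul a E = Matrix.vecMul b E := by
      funext j
      simpa [Matrix.vecMul, dotProduct] using h3 j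
    have h8 := congrArg (fun z => Matrix.vecMul z E) h7
    simpa [Matrix.vecMul_vecMul, hE] using h8
  have h9 : g (nn T x) = nn T' (g x) := by
    rw [← ha, ← hb, ← h6, map_sum]
    refine Finset.sum_congr rfl (fun i _ => ?_)
    rw [map_smul, hgu]
  rw [nn_apply', nn_apply', map_sub, sub_left_inj] at h9
  exact h9

end conj

end wall

section witt

variable {V : Type v} [AddCommGroup V] [Module F V] [FiniteDimensional F V] {T T' : V →ₗ[F] V}

section quad

variable [CharP F 2] {Q : QuadraticForm F V}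

omit [FiniteDimensional F V] [CharP F 2] in
theorem polar_of_iso (hQ : ∀ x, Q (T x) = Q x) (x y : V) : (QuadraticMap.polarBilin Q) (T x) (T y) = (QuadraticMap.polarBilin Q) x y := by
  change QuadraticMap.polar (⇑Q) (T x) (T y) = QuadraticMap.polar (⇑Q) x y
  simp only [QuadraticMap.polar, ← map_add, hQ]

omit [FiniteDimensional F V] in
theorem q_nn (hQ : ∀ x, Q (T x) = Q x) (x : V) : Q (nn T x) = (QuadraticMap.polarBilin Q) (nn T x) x := by
  have h2 : (2 : F) = 0 := two_eq_zero'
  rw [nn_apply', Cfsg.Agent.Lib.Classical.Q_sub Q x (T x), hQ, map_sub, LinearMap.sub_apply, Cfsg.Agent.Lib.Classical.pol_self Q x]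
  linear_combination (2 * Q x - (QuadraticMap.polarBilin Q) (T x) x) * h2

omit [FiniteDimensional F V] in
theorem q_sum_orth {κ : Type} [Fintype κ] [DecidableEq κ] (w : κ → V) (hw : ∀ i j, (QuadraticMap.polarBilin Q) (w i) (w j) = 0) (c : κ → F) (S : Finset κ) :
    Q (∑ i ∈ S, c i • w i) = ∑ i ∈ S, c i * c i * Q (w i) := by
  induction S using Finset.induction_on with
  | empty => simp
  | insert i S hi ih =>
    rw [Finset.sum_insert hi, Finset.sum_insert hi, Cfsg.Agent.Lib.Classical.Q_add, ih, Cfsg.Agent.Lib.Classical.Q_smul]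
    have : (QuadraticMap.polarBilin Q) (c i • w i) (∑ j ∈ S, c j • w j) = 0 := by
      simp only [map_sum, map_smul, LinearMap.smul_apply, smul_eq_mul, hw]
      simp
    rw [this, add_zero]

/-- Conjugacy in the orthogonal group from frames with the same Gram matrix. -/
theorem conj_quad (hnd : (QuadraticMap.polarBilin Q).Nondegenerate) {κ : Type} [Fintype κ] [DecidableEq κ] {E : Matrix κ κ F} (hE : E * E = 1)
    (hT : ∀ x, T (T x) = x) (hQ : ∀ x, Q (T x) = Q x) (hT' : ∀ x, T' (T' x) = x) (hQ' : ∀ x, Q (T' x) = Q x)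
    {u u' : κ → V} (hf : IsFrame (QuadraticMap.polarBilin Q) T E u) (hf' : IsFrame (QuadraticMap.polarBilin Q) T' E u') :
    ∃ g : V ≃ₗ[F] V, (∀ v, Q (g v) = Q v) ∧ ∀ x, g (T x) = T' (g x) := by
  have hB := polar_of_iso hQ
  have hB' := polar_of_iso hQ'
  let w := fun i => nn T (u i)
  let w' := fun i => nn T' (u' i)
  have hli : LinearIndependent F w := li_of_gram hE hf.gram
  have hli' : LinearIndependent F w' := li_of_gram hE hf'.gram
  let b := Module.Basis.span hli
  let b' := Module.Basis.span hli'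
  let φ : Submodule.span F (Set.range w) ≃ₗ[F] Submodule.span F (Set.range w') := b.equiv b' (Equiv.refl κ)
  have hφ : ∀ x, Q (φ x : V) = Q (x : V) := by
    intro x
    have h1 : (x : V) = ∑ i, b.repr x i • w i := by
      conv_lhs => rw [← b.sum_repr x]
      simp [b, Module.Basis.span_apply]
    have h3 : (φ x : V) = ∑ i, b.repr x i • w' i := by
      have : φ x = ∑ i, b.repr x i • b' i := by
        have h8 : φ x = φ (∑ i, b.repr x i • b i) := by rw [b.sum_repr]
        rw [h8, map_sum]
        refine Finset.sum_congr rfl (fun i _ => ?_)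
        rw [map_smul]
        congr 1
        simp [φ]
      rw [this]
      simp [b', Module.Basis.span_apply]
    have hw : ∀ i j, (QuadraticMap.polarBilin Q) (w i) (w j) = 0 := fun i j => bil_range hT hB _ _
    have hw' : ∀ i j, (QuadraticMap.polarBilin Q) (w' i) (w' j) = 0 := fun i j => bil_range hT' hB' _ _
    rw [h1, h3, q_sum_orth w hw, q_sum_orth w' hw']
    refine Finset.sum_congr rfl (fun i _ => ?_)
    have h4 : Q (w i) = E i i := by
      rw [q_nn hQ]
      exact hf.gram i i
    have h5 : Q (w' i) = E i i := by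
      rw [q_nn hQ']
      exact hf'.gram i i
    rw [h4, h5]
  obtain ⟨g, hg1, hg2⟩ := Cfsg.Agent.Lib.Classical.witt_quad Q hnd _ _ φ hφ
  refine ⟨g, hg1, ?_⟩
  have hgB : ∀ x y, (QuadraticMap.polarBilin Q) (g x) (g y) = (QuadraticMap.polarBilin Q) x y :=
    polar_of_iso (T := (g : V →ₗ[F] V)) hg1
  refine intertwine hE hT hB hT' hB' (g : V →ₗ[F] V) hgB hf hf' ?_
  intro i
  have h1 := hg2 ⟨w i, Submodule.subset_span ⟨i, rfl⟩⟩
  have h3 : (⟨w i, Submodule.subset_span ⟨i, rfl⟩⟩ : Submodule.span F (Set.range w)) = b i := by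
    apply Subtype.ext
    simp [b, Module.Basis.span_apply]
  rw [h3] at h1
  have h4 : φ (b i) = b' i := by
    simp [φ]
  rw [h4] at h1
  have h5 : ((b' i : Submodule.span F (Set.range w')) : V) = w' i := by
    simp [b', Module.Basis.span_apply]
  rw [h5] at h1
  have h6 : ((b i : Submodule.span F (Set.range w)) : V) = w i := by
    simp [b, Module.Basis.span_apply]
  rw [h6] at h1
  exact h1

end quad

section alt

variable [CharP F 2] {B : LinearMap.BilinForm F V}

/-- Conjugacy in the symplectic group from frames with the same Gram matrix. -/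
theorem conj_alt (hnd : B.Nondegenerate) (hA : B.IsAlt) {κ : Type} [Fintype κ] [DecidableEq κ] {E : Matrix κ κ F} (hE : E * E = 1)
    (hT : ∀ x, T (T x) = x) (hB : ∀ x y, B (T x) (T y) = B x y) (hT' : ∀ x, T' (T' x) = x) (hB' : ∀ x y, B (T' x) (T' y) = B x y)
    {u u' : κ → V} (hf : IsFrame B T E u) (hf' : IsFrame B T' E u') :
    ∃ g : V ≃ₗ[F] V, (∀ x y, B (g x) (g y) = B x y) ∧ ∀ x, g (T x) = T' (g x) := by
  let w := fun i => nn T (u i)
  let w' := fun i => nn T' (u' i)
  have hli : LinearIndependent F w := li_of_gram hE hf.gram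
  have hli' : LinearIndependent F w' := li_of_gram hE hf'.gram
  let b := Module.Basis.span hli
  let b' := Module.Basis.span hli'
  let φ : Submodule.span F (Set.range w) ≃ₗ[F] Submodule.span F (Set.range w') := b.equiv b' (Equiv.refl κ)
  have hX : ∀ (T₀ : V →ₗ[F] V) (h₁ : ∀ x, T₀ (T₀ x) = x) (h₂ : ∀ x y, B (T₀ x) (T₀ y) = B x y) (x y : V), x ∈ LinearMap.range (nn T₀) → y ∈ LinearMap.range (nn T₀) → B x y = 0 := by
    rintro T₀ h₁ h₂ x y ⟨a, rfl⟩ ⟨c, rfl⟩
    exact bil_range h₁ h₂ a c
  have hle : Submodule.span F (Set.range w) ≤ LinearMap.range (nn T) := by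
    rw [Submodule.span_le]
    rintro _ ⟨i, rfl⟩
    exact ⟨_, rfl⟩
  have hle' : Submodule.span F (Set.range w') ≤ LinearMap.range (nn T') := by
    rw [Submodule.span_le]
    rintro _ ⟨i, rfl⟩
    exact ⟨_, rfl⟩
  have hφ : ∀ x x', B (φ x : V) (φ x' : V) = B (x : V) (x' : V) := by
    intro x x'
    rw [hX T hT hB _ _ (hle x.2) (hle x'.2), hX T' hT' hB' _ _ (hle' (φ x).2) (hle' (φ x').2)]
  obtain ⟨g, hg1, hg2⟩ := Cfsg.Agent.Lib.Classical.witt_alt B hnd hA _ _ φ hφ
  refine ⟨g, hg1, ?_⟩
  refine intertwine hE hT hB hT' hB' (g : V →ₗ[F] V) hg1 hf hf' ?_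
  intro i
  have h1 := hg2 ⟨w i, Submodule.subset_span ⟨i, rfl⟩⟩
  have h3 : (⟨w i, Submodule.subset_span ⟨i, rfl⟩⟩ : Submodule.span F (Set.range w)) = b i := by
    apply Subtype.ext
    simp [b, Module.Basis.span_apply]
  rw [h3] at h1
  have h4 : φ (b i) = b' i := by
    simp [φ]
  rw [h4] at h1
  have h5 : ((b' i : Submodule.span F (Set.range w')) : V) = w' i := by
    simp [b', Module.Basis.span_apply]
  rw [h5] at h1
  have h6 : ((b i : Submodule.span F (Set.range w)) : V) = w i := by
    simp [b, Module.Basis.span_apply]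
  rw [h6] at h1
  exact h1

end alt

section main

variable [Fintype F] [CharP F 2]

/-- Two isometric involutions with the same rank and type are conjugate in the orthogonal group. -/
theorem exists_conj_quad {Q : QuadraticForm F V} (hnd : (QuadraticMap.polarBilin Q).Nondegenerate)
    (hT : ∀ x, T (T x) = x) (hQ : ∀ x, Q (T x) = Q x) (hT' : ∀ x, T' (T' x) = x) (hQ' : ∀ x, Q (T' x) = Q x)
    (hr : finrank F (LinearMap.range (nn T)) = finrank F (LinearMap.range (nn T')))
    (hty : (∀ x, Q (nn T x) = 0) ↔ (∀ x, Q (nn T' x) = 0)) :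
    ∃ g : V ≃ₗ[F] V, (∀ v, Q (g v) = Q v) ∧ ∀ x, g (T x) = T' (g x) := by
  have hS : ∀ x y, (QuadraticMap.polarBilin Q) x y = (QuadraticMap.polarBilin Q) y x := fun x y => QuadraticMap.polar_comm _ _ _
  have hB := polar_of_iso hQ
  have hB' := polar_of_iso hQ'
  by_cases ha : ∀ x, Q (nn T x) = 0
  · have ha' := hty.1 ha
    obtain ⟨k, u, hk, hf⟩ := exists_frame_alt hS hnd hT hB (fun x => by rw [← q_nn hQ]; exact ha x)
    obtain ⟨k', u', hk', hf'⟩ := exists_frame_alt hS hnd hT' hB' (fun x => by rw [← q_nn hQ']; exact ha' x)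
    obtain rfl : k = k' := by omega
    exact conj_quad hnd (hypE_sq k) hT hQ hT' hQ' hf hf'
  · have ha' : ¬ ∀ x, Q (nn T' x) = 0 := fun h => ha (hty.2 h)
    push Not at ha ha'
    obtain ⟨x, hx⟩ := ha
    obtain ⟨x', hx'⟩ := ha'
    obtain ⟨u, hf⟩ := exists_frame_nonalt hS hnd hT hB ⟨x, by rwa [← q_nn hQ]⟩
    have h1 : ∃ u' : Fin (finrank F (LinearMap.range (nn T))) → V, IsFrame (QuadraticMap.polarBilin Q) T' (1 : Matrix _ _ F) u' := by
      rw [hr]
      exact exists_frame_nonalt hS hnd hT' hB' ⟨x', by rwa [← q_nn hQ']⟩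
    obtain ⟨u', hf'⟩ := h1
    exact conj_quad hnd (Matrix.one_mul 1) hT hQ hT' hQ' hf hf'

/-- Two symplectic involutions with the same rank and type are conjugate in the symplectic group. -/
theorem exists_conj_alt {B : LinearMap.BilinForm F V} (hnd : B.Nondegenerate) (hA : B.IsAlt) (hS : ∀ x y, B x y = B y x)
    (hT : ∀ x, T (T x) = x) (hB : ∀ x y, B (T x) (T y) = B x y) (hT' : ∀ x, T' (T' x) = x) (hB' : ∀ x y, B (T' x) (T' y) = B x y)
    (hr : finrank F (LinearMap.range (nn T)) = finrank F (LinearMap.range (nn T')))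
    (hty : (∀ x, B (nn T x) x = 0) ↔ (∀ x, B (nn T' x) x = 0)) :
    ∃ g : V ≃ₗ[F] V, (∀ x y, B (g x) (g y) = B x y) ∧ ∀ x, g (T x) = T' (g x) := by
  by_cases ha : ∀ x, B (nn T x) x = 0
  · have ha' := hty.1 ha
    obtain ⟨k, u, hk, hf⟩ := exists_frame_alt hS hnd hT hB ha
    obtain ⟨k', u', hk', hf'⟩ := exists_frame_alt hS hnd hT' hB' ha'
    obtain rfl : k = k' := by omega
    exact conj_alt hnd hA (hypE_sq k) hT hB hT' hB' hf hf'
  · have ha' : ¬ ∀ x, B (nn T' x) x = 0 := fun h => ha (hty.2 h)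
    push Not at ha ha'
    obtain ⟨u, hf⟩ := exists_frame_nonalt hS hnd hT hB ha
    have h1 : ∃ u' : Fin (finrank F (LinearMap.range (nn T))) → V, IsFrame B T' (1 : Matrix _ _ F) u' := by
      rw [hr]
      exact exists_frame_nonalt hS hnd hT' hB' ha'
    obtain ⟨u', hf'⟩ := h1
    exact conj_alt hnd hA (Matrix.one_mul 1) hT hB hT' hB' hf hf'

end main

end witt

end Cfsg.Agent.Lib.Classical.InvolEven
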