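import Mathlib
import Cfsg.Agent.Lib.Spinor.Cor
import Cfsg.Agent.Lib.Classical.OrthBase
import Cfsg.Agent.Lib.Classical.OrthOrder
import Cfsg.Agent.Lib.Classical.Rank2Om

/-! The parity of `rank (g - 1)` for an isometry `g` counts the reflections in a factorisation of `g`;
in characteristic two this describes `Ω`. -/

set_option autoImplicit false
set_option linter.unusedSimpArgs false
set_option linter.unusedVariables false
set_option linter.unusedSectionVars false
set_option linter.style.haveILetI false

namespace Cfsg.Agent.Lib.Classical.RankParity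

open Matrix Module Cfsg.Agent.Lib.Classical
open Cfsg.Agent.Lib.Spinor (lp rO rr rO_mat lp_nil lp_cons nm lp_mem_omega_iff exists_lp)
open Cfsg.Agent.Lib.Classical.Rank2Om (rO_act)

variable {F : Type*} [Field F] {ι : Type} [Fintype ι] [DecidableEq ι] {Q : QuadraticForm F (ι → F)}

local notation "bb" => QuadraticMap.polar (DFunLike.coe Q)

/-- The fixed space of an isometry. -/
noncomputable def fx (g : OG Q) : Submodule F (ι → F) := LinearMap.ker (Matrix.toLin' (oM g - 1))

omit [DecidableEq ι] in
theorem mem_fx [DecidableEq ι] (g : OG Q) (x : ι → F) : x ∈ fx g ↔ oM g *ᵥ x = x := by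
  simp [fx, Matrix.toLin'_apply, Matrix.sub_mulVec, sub_eq_zero]

theorem rank_add_fx (g : OG Q) : (oM g - 1).rank + finrank F (fx g) = Fintype.card ι := by
  have := LinearMap.finrank_range_add_finrank_ker (Matrix.toLin' (oM g - 1))
  rw [Module.finrank_fintype_fun_eq_card] at this
  rw [← this]
  rfl

/-- The image of `g - 1`. -/
noncomputable def im1 (g : OG Q) : Submodule F (ι → F) := LinearMap.range (Matrix.toLin' (oM g - 1))

theorem mem_im1 (g : OG Q) (w : ι → F) : w ∈ im1 g ↔ ∃ y, oM g *ᵥ y - y = w := by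
  simp [im1, Matrix.toLin'_apply, Matrix.sub_mulVec]

/-- The image of `g - 1` is the orthogonal complement of the fixed space. -/
theorem mem_im1_iff (hnd : (QuadraticMap.polarBilin Q).Nondegenerate) (g : OG Q) (w : ι → F) :
    w ∈ im1 g ↔ ∀ k ∈ fx g, bb w k = 0 := by
  have hle : im1 g ≤ LinearMap.BilinForm.orthogonal (QuadraticMap.polarBilin Q) (fx g) := by
    intro w hw k hk
    obtain ⟨y, rfl⟩ := (mem_im1 g w).1 hw
    change bb k _ = 0
    rw [polar_symm, polar_sub_l]
    have h3 := oM_polar g y k
    rw [(mem_fx g k).1 hk] at h3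
    rw [h3, sub_self]
  have hfr : finrank F (im1 g) = finrank F (LinearMap.BilinForm.orthogonal (QuadraticMap.polarBilin Q) (fx g)) := by
    rw [LinearMap.BilinForm.finrank_orthogonal hnd, Module.finrank_fintype_fun_eq_card]
    have h3 := rank_add_fx g
    have h4 : finrank F (im1 g) = (oM g - 1).rank := rfl
    omega
  have heq := Submodule.eq_of_le_of_finrank_eq hle hfr
  rw [heq]
  constructor
  · intro h k hk
    have := h k hk
    change bb k w = 0 at this
    rw [polar_symm]
    exact this
  · intro h k hk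
    change bb k w = 0
    rw [polar_symm]
    exact h k hk

theorem rO_mulVec {v : ι → F} (hv : Q v ≠ 0) (x : ι → F) : oM (rO Q v) *ᵥ x = x - ((Q v)⁻¹ * bb v x) • v := by
  show Cfsg.Agent.Lib.Spinor.OG.mat (rO Q v) *ᵥ x = _
  rw [rO_mat hv]
  exact reflection_mulVec Q v x

/-- Multiplying by a reflection changes the fixed space by one dimension. -/
theorem fx_rO_mul (hnd : (QuadraticMap.polarBilin Q).Nondegenerate) (v : ι → F) (hv : Q v ≠ 0) (g : OG Q) :
    finrank F (fx (rO Q v * g)) + 1 = finrank F (fx g) ∨ finrank F (fx (rO Q v * g)) = finrank F (fx g) + 1 := by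
  have hv0 : v ≠ 0 := fun h => hv (by rw [h]; exact q_zero)
  have hact : ∀ x, oM (rO Q v * g) *ᵥ x = oM g *ᵥ x - ((Q v)⁻¹ * bb v (oM g *ᵥ x)) • v := by
    intro x
    rw [oM_mul, rO_mulVec hv]
  by_cases hvw : v ∈ im1 g
  · right
    obtain ⟨y, hy⟩ := (mem_im1 g v).1 hvw
    have hbb : bb v (oM g *ᵥ y) = Q v := by
      rw [← hy, polar_sub_l, polar_self2, oM_Q]
      have h3 : Q (oM g *ᵥ y - y) = Q y + Q y - bb (oM g *ᵥ y) y := by
        rw [q_sub, oM_Q]
      rw [h3, polar_symm y]
      ring
    have hk : ∀ k ∈ fx g, bb v k = 0 := (mem_im1_iff hnd g v).1 hvw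
    have hyn : y ∉ fx g := by
      intro h
      rw [mem_fx] at h
      rw [h, sub_self] at hy
      exact hv0 hy.symm
    have heq : fx (rO Q v * g) = (F ∙ y) ⊔ fx g := by
      apply le_antisymm
      · intro x hx
        rw [mem_fx, hact] at hx
        set c := (Q v)⁻¹ * bb v (oM g *ᵥ x) with hc
        have h3 : x - c • y ∈ fx g := by
          rw [mem_fx, Matrix.mulVec_sub, Matrix.mulVec_smul]
          have h5 : oM g *ᵥ x = x + c • v := by
            rw [← sub_eq_iff_eq_add]
            exact hx
          rw [h5, ← hy, smul_sub]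
          abel
        have h4 : x = c • y + (x - c • y) := by abel
        rw [h4]
        exact Submodule.add_mem _ (Submodule.mem_sup_left (Submodule.smul_mem _ _ (Submodule.mem_span_singleton_self y))) (Submodule.mem_sup_right h3)
      · apply sup_le
        · rw [Submodule.span_singleton_le_iff_mem, mem_fx, hact, hbb, inv_mul_cancel₀ hv, one_smul, ← hy]
          abel
        · intro k hk'
          rw [mem_fx, hact, (mem_fx g k).1 hk', hk k hk', mul_zero, zero_smul, sub_zero]
    rw [heq]
    have h3 := Submodule.finrank_sup_add_finrank_inf_eq (F ∙ y) (fx g)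
    have h4 : (F ∙ y) ⊓ fx g = ⊥ := by
      rw [Submodule.eq_bot_iff]
      intro x hx
      obtain ⟨c, rfl⟩ := Submodule.mem_span_singleton.1 hx.1
      by_contra hne
      have hc : c ≠ 0 := fun h => hne (by rw [h, zero_smul])
      apply hyn
      have h5 := Submodule.smul_mem _ c⁻¹ hx.2
      rwa [smul_smul, inv_mul_cancel₀ hc, one_smul] at h5
    have hy0 : y ≠ 0 := fun h => hyn (h ▸ Submodule.zero_mem _)
    rw [h4, finrank_bot, add_zero, finrank_span_singleton hy0] at h3
    omega
  · left
    have hex : ∃ k ∈ fx g, bb v k ≠ 0 := by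
      by_contra hcon
      push Not at hcon
      exact hvw ((mem_im1_iff hnd g v).2 hcon)
    obtain ⟨k0, hk0, hk0n⟩ := hex
    let f : Module.Dual F (ι → F) := QuadraticMap.polarBilin Q v
    have hf : ∀ x, f x = bb v x := fun x => rfl
    have hf0 : f ≠ 0 := fun h => hk0n (by rw [← hf, h]; rfl)
    have heq : fx (rO Q v * g) = fx g ⊓ LinearMap.ker f := by
      apply le_antisymm
      · intro x hx
        rw [mem_fx, hact] at hx
        set c := (Q v)⁻¹ * bb v (oM g *ᵥ x) with hc
        have h5 : oM g *ᵥ x - x = c • v := by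
          rw [sub_eq_iff_eq_add']
          rw [sub_eq_iff_eq_add'] at hx
          rw [hx]
          abel
        have hc0 : c = 0 := by
          by_contra hc0
          apply hvw
          rw [mem_im1]
          refine ⟨c⁻¹ • x, ?_⟩
          rw [Matrix.mulVec_smul, ← smul_sub, h5, smul_smul, inv_mul_cancel₀ hc0, one_smul]
        rw [hc0, zero_smul, sub_eq_zero] at h5
        refine ⟨(mem_fx g x).2 h5, ?_⟩
        change f x = 0
        rw [hf]
        rw [hc, h5] at hc0
        exact (mul_eq_zero.1 hc0).resolve_left (inv_ne_zero hv)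
      · rintro x ⟨hx1, hx2⟩
        have hx3 : f x = 0 := hx2
        rw [hf] at hx3
        rw [mem_fx, hact, (mem_fx g x).1 hx1, hx3, mul_zero, zero_smul, sub_zero]
    rw [heq]
    have h3 := Submodule.finrank_sup_add_finrank_inf_eq (fx g) (LinearMap.ker f)
    have h4 : fx g ⊔ LinearMap.ker f = ⊤ := by
      rw [eq_top_iff]
      intro x _
      have h5 : x = ((f x / f k0) • k0) + (x - (f x / f k0) • k0) := by abel
      rw [h5]
      refine Submodule.add_mem _ (Submodule.mem_sup_left (Submodule.smul_mem _ _ hk0)) (Submodule.mem_sup_right ?_)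
      rw [LinearMap.mem_ker, map_sub, map_smul, smul_eq_mul, div_mul_cancel₀ _ (by rwa [hf]), sub_self]
    have h5 := Module.Dual.finrank_ker_add_one_of_ne_zero hf0
    rw [h4, finrank_top] at h3
    omega

theorem even_rank_rO_mul (hnd : (QuadraticMap.polarBilin Q).Nondegenerate) (v : ι → F) (hv : Q v ≠ 0) (g : OG Q) :
    Even (oM (rO Q v * g) - 1).rank ↔ ¬ Even (oM g - 1).rank := by
  have h1 := rank_add_fx g
  have h2 := rank_add_fx (rO Q v * g)
  rcases fx_rO_mul hnd v hv g with h3 | h3
  · have h4 : (oM (rO Q v * g) - 1).rank = (oM g - 1).rank + 1 := by omega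
    rw [h4, Nat.even_add_one]
  · have h4 : (oM g - 1).rank = (oM (rO Q v * g) - 1).rank + 1 := by omega
    rw [h4, Nat.even_add_one, not_not]

/-- The parity of the rank of `g - 1` is the parity of the number of reflections. -/
theorem even_rank_lp (hnd : (QuadraticMap.polarBilin Q).Nondegenerate) (vs : List (ι → F)) (hvs : ∀ v ∈ vs, Q v ≠ 0) :
    Even (oM (lp Q vs) - 1).rank ↔ Even vs.length := by
  induction vs with
  | nil =>
    have : oM (lp Q []) - 1 = 0 := by
      rw [lp_nil]
      exact sub_self _
    simp [this]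
  | cons v vs ih =>
    rw [lp_cons, even_rank_rO_mul hnd v (hvs v (by simp)), ih (fun w hw => hvs w (by simp [hw])), List.length_cons, Nat.even_add_one]

/-- In characteristic two, `Ω` consists of the isometries with `g - 1` of even rank. -/
theorem mem_omega_iff_even_rank [Fintype F] [CharP F 2] (hnd : (QuadraticMap.polarBilin Q).Nondegenerate) (hq : Fintype.card ι ≠ 4) (t : OG Q) :
    t ∈ Cfsg.Omega F ⇑Q ↔ Even (oM t - 1).rank := by
  obtain ⟨vs, hvs, rfl⟩ := exists_lp hnd (Or.inr hq) t
  rw [lp_mem_omega_iff hnd (Or.inr hq) hvs, even_rank_lp hnd vs hvs]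
  have h2 : ringChar F = 2 := ringChar.eq F 2
  have := FiniteField.isSquare_of_char_two (F := F)
  simp [FiniteField.isSquare_of_char_two h2]

/-- The same, for a function which is a nondegenerate quadratic form. -/
theorem mem_omega_iff_even_rank' [Fintype F] [CharP F 2] {Q0 : (ι → F) → F} (h0 : NDQ Q0) (hq : Fintype.card ι ≠ 4) (t : ↥(Cfsg.isometryGroup F Q0)) :
    t ∈ Cfsg.Omega F Q0 ↔ Even (((t : GL ι F) : Matrix ι ι F) - 1).rank := by
  obtain ⟨Q', rfl, hnd⟩ := h0
  exact mem_omega_iff_even_rank hnd hq t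

end Cfsg.Agent.Lib.Classical.RankParity
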