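import Mathlib
import Cfsg.Agent.Lib.Classical.InvolEven
import Cfsg.Agent.Lib.Classical.RankParity
import Cfsg.Agent.Lib.Spinor.Dickson
import Cfsg.Agent.Lib.ClassMax.WittFun
import Cfsg.Agent.Lib.Quad.Witt
import Cfsg.Agent.Lib.Classical.OrthMinus

/-! Involutions of orthogonal groups in characteristic two: conjugacy and the splitting in `Ω`. -/

set_option autoImplicit false
set_option linter.unusedSimpArgs false
set_option linter.unusedVariables false
set_option linter.unusedSectionVars false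
set_option linter.style.haveILetI false

namespace Cfsg.Agent.Lib.Classical.InvolEven

open Matrix Module Cfsg.Agent.Lib.Classical
open Cfsg.Agent.Lib.Spinor (lp rO rr rO_mat lp_nil lp_cons nm lp_mem_omega_iff exists_lp par_lp lp_append)
open Cfsg.Agent.Lib.Classical.RankParity (rO_mulVec mem_omega_iff_even_rank even_rank_lp)

variable {F : Type*} [Field F] [CharP F 2] {ι : Type} [Fintype ι] [DecidableEq ι] {Q : QuadraticForm F (ι → F)}

local notation "bb" => QuadraticMap.polar (DFunLike.coe Q)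

/-- The linear map of an isometry. -/
abbrev tL (t : OG Q) : (ι → F) →ₗ[F] (ι → F) := (oM t).mulVecLin

theorem tL_apply (t : OG Q) (x : ι → F) : tL t x = oM t *ᵥ x := rfl

theorem tL_tL {t : OG Q} (ht : t * t = 1) (x : ι → F) : tL t (tL t x) = x := by
  show oM t *ᵥ (oM t *ᵥ x) = x
  rw [← oM_mul, ht, oM_one]

theorem nn_tL (t : OG Q) : nn (tL t) = (oM t - 1).mulVecLin := by
  ext x
  simp [nn, Matrix.sub_mulVec]

theorem finrank_nn (t : OG Q) : finrank F (LinearMap.range (nn (tL t))) = (oM t - 1).rank := by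
  rw [nn_tL]
  rfl

theorem nn_tL_apply (t : OG Q) (x : ι → F) : nn (tL t) x = oM t *ᵥ x - x := rfl

/-- Types of involutions: `Q (t x - x) = 0` for all `x`. -/
def IsAType (t : OG Q) : Prop := ∀ x, Q (oM t *ᵥ x - x) = 0

theorem isAType_iff_polar (t : OG Q) : IsAType t ↔ ∀ x, bb (oM t *ᵥ x - x) x = 0 := by
  have h1 : ∀ x, Q (oM t *ᵥ x - x) = bb (oM t *ᵥ x - x) x := fun x => q_nn (T := tL t) (Q := Q) (fun y => oM_Q t y) x
  simp only [IsAType, h1]

/-- An isometry from a linear equivalence. -/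
noncomputable def ogOfEquiv (g : (ι → F) ≃ₗ[F] (ι → F)) (hg : ∀ v, Q (g v) = Q v) : OG Q :=
  ⟨Cfsg.Agent.Lib.ClassMax.glOfEquiv g, fun u _ => by
    show Q (((Cfsg.Agent.Lib.ClassMax.glOfEquiv g : GL ι F) : Matrix ι ι F) *ᵥ u) = Q u
    rw [Cfsg.Agent.Lib.ClassMax.glOfEquiv_mulVec, hg]⟩

theorem ogOfEquiv_apply (g : (ι → F) ≃ₗ[F] (ι → F)) (hg : ∀ v, Q (g v) = Q v) (x : ι → F) : oM (ogOfEquiv g hg) *ᵥ x = g x :=
  Cfsg.Agent.Lib.ClassMax.glOfEquiv_mulVec g x

/-- Same rank and type: conjugate. -/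
theorem isConj_of_invariants [Fintype F] (hnd : (QuadraticMap.polarBilin Q).Nondegenerate) {t s : OG Q} (ht : t * t = 1) (hs : s * s = 1)
    (hr : (oM t - 1).rank = (oM s - 1).rank) (hty : IsAType t ↔ IsAType s) : IsConj t s := by
  obtain ⟨g, hg1, hg2⟩ := exists_conj_quad (T := tL t) (T' := tL s) hnd (tL_tL ht) (fun y => oM_Q t y) (tL_tL hs) (fun y => oM_Q s y)
    (by rw [finrank_nn, finrank_nn, hr]) hty
  rw [isConj_iff]
  refine ⟨ogOfEquiv g hg1, ?_⟩
  have h1 : ogOfEquiv g hg1 * t = s * ogOfEquiv g hg1 := by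
    apply og_ext
    intro x
    rw [oM_mul, oM_mul, ogOfEquiv_apply, ogOfEquiv_apply]
    exact hg2 x
  rw [h1]
  group

theorem sq_of_order {G : Type*} [Group G] {t : G} (ht : orderOf t = 2) : t * t = 1 := by
  have := pow_orderOf_eq_one t
  rwa [ht, pow_two] at this

/-- Conjugacy of involutions under the symplectic group of the polar form. -/
theorem isConj_iff_sp [Fintype F] {Q0 : (ι → F) → F} (h0 : NDQ Q0) (t s : ↥(Cfsg.isometryGroup F Q0)) (ht : orderOf t = 2) (hs : orderOf s = 2) :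
    IsConj t s ↔ ∃ g ∈ Cfsg.preserving (Units.coeHom (Matrix ι ι F)) (fun u v => Q0 (u + v) - Q0 u - Q0 v),
      g * ((t : ↥(Cfsg.isometryGroup F Q0)) : GL ι F) * g⁻¹ = ((s : ↥(Cfsg.isometryGroup F Q0)) : GL ι F) := by
  obtain ⟨Q, rfl, hnd⟩ := h0
  constructor
  · intro h
    obtain ⟨c, hc⟩ := isConj_iff.1 h
    refine ⟨c.1, ?_, ?_⟩
    · intro u v
      show Q (((c.1 : GL ι F) : Matrix ι ι F) *ᵥ u + ((c.1 : GL ι F) : Matrix ι ι F) *ᵥ v) - Q (((c.1 : GL ι F) : Matrix ι ι F) *ᵥ u) - Q (((c.1 : GL ι F) : Matrix ι ι F) *ᵥ v) = _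
      rw [← mulVec_add]
      have hq := fun x => oM_Q (Q := Q) c x
      rw [hq, hq, hq]
    · have := congrArg Subtype.val hc
      simpa using this
  · rintro ⟨g, hg, hgs⟩
    have hrk : (oM t - 1).rank = (oM s - 1).rank := by
      have h1 : oM s - 1 = (g : Matrix ι ι F) * (oM t - 1) * ((g⁻¹ : GL ι F) : Matrix ι ι F) := by
        have h3 : oM s = (g : Matrix ι ι F) * oM t * ((g⁻¹ : GL ι F) : Matrix ι ι F) := by
          have h5 := congrArg (fun x : GL ι F => (x : Matrix ι ι F)) hgs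
          simp only [Units.val_mul] at h5
          exact h5.symm
        have h6 : (g : Matrix ι ι F) * ((g⁻¹ : GL ι F) : Matrix ι ι F) = 1 := by
          rw [← Units.val_mul, mul_inv_cancel, Units.val_one]
        rw [h3, Matrix.mul_sub, Matrix.sub_mul, Matrix.mul_one, h6]
      rw [h1, Matrix.rank_mul_eq_left_of_isUnit_det _ _ (Matrix.isUnits_det_units (g⁻¹)), Matrix.rank_mul_eq_right_of_isUnit_det _ _ (Matrix.isUnits_det_units g)]
    have hpol : ∀ x y, QuadraticMap.polar (⇑Q) ((g : Matrix ι ι F) *ᵥ x) ((g : Matrix ι ι F) *ᵥ y) = QuadraticMap.polar (⇑Q) x y := fun x y => hg x y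
    have hint : ∀ x, (g : Matrix ι ι F) *ᵥ (oM t *ᵥ x - x) = oM s *ᵥ ((g : Matrix ι ι F) *ᵥ x) - (g : Matrix ι ι F) *ᵥ x := by
      intro x
      have h3 : (g : Matrix ι ι F) * oM t = oM s * (g : Matrix ι ι F) := by
        have h5 : g * ((t : ↥(Cfsg.isometryGroup F ⇑Q)) : GL ι F) = ((s : ↥(Cfsg.isometryGroup F ⇑Q)) : GL ι F) * g := by
          rw [← hgs]
          group
        have h6 := congrArg (fun x : GL ι F => (x : Matrix ι ι F)) h5
        simp only [Units.val_mul] at h6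
        exact h6
      rw [mulVec_sub, mulVec_mulVec, h3, ← mulVec_mulVec]
    have hty : IsAType t ↔ IsAType s := by
      rw [isAType_iff_polar, isAType_iff_polar]
      constructor
      · intro h y
        obtain ⟨x, rfl⟩ : ∃ x, (g : Matrix ι ι F) *ᵥ x = y := ⟨((g⁻¹ : GL ι F) : Matrix ι ι F) *ᵥ y, by
          rw [mulVec_mulVec, ← Units.val_mul, mul_inv_cancel, Units.val_one, one_mulVec]⟩
        rw [← hint, hpol]
        exact h x
      · intro h x
        rw [← hpol, hint]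
        exact h _
    exact isConj_of_invariants hnd (sq_of_order ht) (sq_of_order hs) hrk hty

section omega

variable [Fintype F]

theorem hq_card {m : ℕ} (hc : Fintype.card ι = 2 * m) (hm : 3 ≤ m) : Fintype.card ι ≠ 4 := by omega

/-- A reflection in a fixed vector commutes with the isometry. -/
theorem rO_comm {t : OG Q} {v : ι → F} (hv : Q v ≠ 0) (htv : oM t *ᵥ v = v) : rO Q v * t = t * rO Q v := by
  apply og_ext
  intro x
  rw [oM_mul, oM_mul, rO_mulVec hv, rO_mulVec hv, mulVec_sub, mulVec_smul, htv]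
  have h1 : bb v (oM t *ᵥ x) = bb v x := by
    conv_lhs => rw [← htv]
    exact oM_polar t v x
  rw [h1]

/-- Conjugacy by an element of `Ω` when the isometry commutes with a reflection. -/
theorem omega_conj_of_fixed (hnd : (QuadraticMap.polarBilin Q).Nondegenerate) (hq : Fintype.card ι ≠ 4) {t s : OG Q} (hconj : IsConj t s)
    {v : ι → F} (hv : Q v ≠ 0) (htv : oM t *ᵥ v = v) : ∃ g ∈ Cfsg.Omega F ⇑Q, g * t * g⁻¹ = s := by
  obtain ⟨g, hg⟩ := isConj_iff.1 hconj
  by_cases hgO : g ∈ Cfsg.Omega F ⇑Q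
  · exact ⟨g, hgO, hg⟩
  refine ⟨g * rO Q v, ?_, ?_⟩
  · obtain ⟨vs, hvs, rfl⟩ := exists_lp hnd (Or.inr hq) g
    have h2 : ringChar F = 2 := ringChar.eq F 2
    rw [lp_mem_omega_iff hnd (Or.inr hq) hvs] at hgO
    have h3 : lp Q vs * rO Q v = lp Q (vs ++ [v]) := by
      rw [lp_append, lp_cons, lp_nil, mul_one]
    rw [h3, lp_mem_omega_iff hnd (Or.inr hq) (by
      intro w hw
      rcases List.mem_append.1 hw with hw | hw
      · exact hvs w hw
      · rw [List.mem_singleton.1 hw]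
        exact hv)]
    refine ⟨?_, FiniteField.isSquare_of_char_two h2 _⟩
    rw [List.length_append, List.length_singleton, Nat.even_add_one]
    intro hev
    exact hgO ⟨hev, FiniteField.isSquare_of_char_two h2 _⟩
  · have h3 : rO Q v * t * (rO Q v)⁻¹ = t := by
      rw [rO_comm hv htv]
      group
    calc g * rO Q v * t * (g * rO Q v)⁻¹ = g * (rO Q v * t * (rO Q v)⁻¹) * g⁻¹ := by group
      _ = s := by rw [h3, hg]

theorem fixed_dim (hnd : (QuadraticMap.polarBilin Q).Nondegenerate) {t : OG Q} (ht : t * t = 1) {m : ℕ} (hc : Fintype.card ι = 2 * m) :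
    (oM t - 1).rank ≤ m ∧ (oM t - 1).rank + finrank F (RankParity.fx t) = 2 * m := by
  have h1 := RankParity.rank_add_fx t
  have h2 : LinearMap.range (Matrix.toLin' (oM t - 1)) ≤ RankParity.fx t := by
    rintro _ ⟨x, rfl⟩
    rw [RankParity.mem_fx, Matrix.toLin'_apply, sub_mulVec, one_mulVec, mulVec_sub, ← oM_mul, ht, oM_one]
    have h3 : (2 : F) • (x - oM t *ᵥ x) = 0 := by rw [two_eq_zero', zero_smul]
    rw [two_smul] at h3
    rw [← sub_eq_zero, ← h3]
    abel
  have h3 := Submodule.finrank_mono h2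
  have h4 : finrank F (LinearMap.range (Matrix.toLin' (oM t - 1))) = (oM t - 1).rank := rfl
  omega

/-- If the fixed space is not totally singular, no splitting occurs. -/
theorem exists_nonsingular_fixed (hnd : (QuadraticMap.polarBilin Q).Nondegenerate) {t : OG Q} (ht : t * t = 1) {m : ℕ} (hc : Fintype.card ι = 2 * m)
    (hmax : ∀ U : Submodule F (ι → F), (∀ u ∈ U, Q u = 0) → finrank F U ≤ m) (hexc : ¬ ((oM t - 1).rank = m ∧ IsAType t)) :
    ∃ v, Q v ≠ 0 ∧ oM t *ᵥ v = v := by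
  by_contra hcon
  push Not at hcon
  have h1 : ∀ u ∈ RankParity.fx t, Q u = 0 := by
    intro u hu
    by_contra h0
    exact hcon u h0 ((RankParity.mem_fx t u).1 hu)
  have h2 := hmax _ h1
  obtain ⟨h3, h4⟩ := fixed_dim hnd ht hc
  apply hexc
  refine ⟨by omega, fun x => h1 _ ?_⟩
  rw [RankParity.mem_fx, mulVec_sub, ← oM_mul, ht, oM_one]
  have h5 : (2 : F) • (x - oM t *ᵥ x) = 0 := by rw [two_eq_zero', zero_smul]
  rw [two_smul] at h5
  rw [← sub_eq_zero, ← h5]
  abel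

/-- Splitting classes in `Ω`. -/
theorem omega_conj_general {Q0 : (ι → F) → F} (h0 : NDQ Q0) {m : ℕ} (hc : Fintype.card ι = 2 * m) (hm : 3 ≤ m)
    (hmax : ∀ U : Submodule F (ι → F), (∀ u ∈ U, Q0 u = 0) → finrank F U ≤ m) {t s : ↥(Cfsg.isometryGroup F Q0)} (ht : orderOf t = 2) (hconj : IsConj t s)
    (hexc : ¬ ((((t : ↥(Cfsg.isometryGroup F Q0)) : GL ι F) : Matrix ι ι F) - 1).rank = m ∨ ¬ ∀ x, Q0 (((t : ↥(Cfsg.isometryGroup F Q0)) : GL ι F) *ᵥ x - x) = 0) :
    ∃ g ∈ Cfsg.Omega F Q0, g * t * g⁻¹ = s := by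
  obtain ⟨Q, rfl, hnd⟩ := h0
  obtain ⟨v, hv, htv⟩ := exists_nonsingular_fixed hnd (sq_of_order ht) hc hmax (fun h => by
    rcases hexc with h3 | h3
    · exact h3 h.1
    · exact h3 h.2)
  exact omega_conj_of_fixed hnd (by omega) hconj hv htv

/-- The exceptional case: the class of an involution with maximal totally singular image. -/
theorem omega_conj_exceptional {Q0 : (ι → F) → F} (h0 : NDQ Q0) {m : ℕ} (hc : Fintype.card ι = 2 * m) (hm : 3 ≤ m) {t s : ↥(Cfsg.isometryGroup F Q0)} (ht : orderOf t = 2) (htO : t ∈ Cfsg.Omega F Q0)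
    (hconj : IsConj t s)
    (hrank : (((t : ↥(Cfsg.isometryGroup F Q0)) : GL ι F) - 1 : Matrix ι ι F).rank = m)
    (hA : ∀ x, Q0 (((t : ↥(Cfsg.isometryGroup F Q0)) : GL ι F) *ᵥ x - x) = 0) :
    (∃ g ∈ Cfsg.Omega F Q0, g * t * g⁻¹ = s) ↔
      Even (finrank F ↥(LinearMap.range (Matrix.toLin' ((((t : ↥(Cfsg.isometryGroup F Q0)) : GL ι F) : Matrix ι ι F) - 1)) ⊓ LinearMap.range (Matrix.toLin' ((((s : ↥(Cfsg.isometryGroup F Q0)) : GL ι F) : Matrix ι ι F) - 1)))) := by
  obtain ⟨Q, rfl, hnd⟩ := h0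
  have hq : Fintype.card ι ≠ 4 := by omega
  set U : Submodule F (ι → F) := LinearMap.range (Matrix.toLin' (oM t - 1)) with hU
  have hUd : finrank F U = m := hrank
  have hUM : Cfsg.Agent.Lib.ClassMax.OmegaCore.IsMaxTS (⇑Q) U := by
    refine ⟨?_, by rw [hUd, hc]⟩
    rintro _ ⟨x, rfl⟩
    have := hA x
    simpa [Matrix.toLin'_apply, sub_mulVec] using this
  have him : ∀ g : OG Q, g * t * g⁻¹ = s → Cfsg.Agent.Lib.ClassMax.OmegaCore.imgOf g.1 U = LinearMap.range (Matrix.toLin' (oM s - 1)) := by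
    intro g hg
    subst hg
    have key : ∀ x, oM (g * t * g⁻¹) *ᵥ (oM g *ᵥ x) = oM g *ᵥ (oM t *ᵥ x) := by
      intro x
      rw [oM_mul, oM_mul, oM_inv_self]
    apply le_antisymm
    · intro y hy
      obtain ⟨z, ⟨x, rfl⟩, rfl⟩ := Cfsg.Agent.Lib.ClassMax.OmegaCore.mem_imgOf.1 hy
      refine ⟨oM g *ᵥ x, ?_⟩
      simp only [Matrix.toLin'_apply, sub_mulVec, one_mulVec, mulVec_sub]
      rw [key]
    · rintro _ ⟨z, rfl⟩
      refine Cfsg.Agent.Lib.ClassMax.OmegaCore.mem_imgOf.2 ⟨(oM t - 1) *ᵥ (oM g⁻¹ *ᵥ z), ⟨oM g⁻¹ *ᵥ z, rfl⟩, ?_⟩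
      simp only [Matrix.toLin'_apply, sub_mulVec, one_mulVec, mulVec_sub]
      rw [← key, oM_self_inv]
  have hev : Even m := by
    have := (mem_omega_iff_even_rank hnd hq t).1 htO
    rwa [hrank] at this
  have hpar : ∀ g : OG Q, g * t * g⁻¹ = s → (g ∈ Cfsg.Omega F ⇑Q ↔ Even (finrank F ↥(U ⊓ LinearMap.range (Matrix.toLin' (oM s - 1))))) := by
    intro g hg
    obtain ⟨vs, hvs, rfl⟩ := exists_lp hnd (Or.inr hq) g
    have h2 : ringChar F = 2 := ringChar.eq F 2
    have h3 := par_lp hnd hUM hvs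
    rw [him _ hg, hUd] at h3
    rw [lp_mem_omega_iff hnd (Or.inr hq) hvs]
    have h4 := FiniteField.isSquare_of_char_two h2 (nm Q vs)
    obtain ⟨k, hk⟩ := hev
    rw [Nat.even_iff, Nat.even_iff]
    constructor
    · rintro ⟨h5, -⟩
      omega
    · intro h5
      refine ⟨?_, h4⟩
      omega
  constructor
  · rintro ⟨g, hg, hgs⟩
    exact (hpar g hgs).1 hg
  · intro h
    obtain ⟨g, hg⟩ := isConj_iff.1 hconj
    exact ⟨g, (hpar g hg).2 h, hg⟩

end omega

end Cfsg.Agent.Lib.Classical.InvolEven
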