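import Mathlib
import Cfsg.Prelude.Def_Classical

/-! Transport of isometry groups along ring isomorphisms. -/

set_option autoImplicit false
set_option linter.unusedSimpArgs false
set_option linter.unusedVariables false
set_option linter.unusedSectionVars false

namespace Cfsg.Agent.Lib.Classical

open Matrix

variable {ι : Type} [Fintype ι] [DecidableEq ι] {F K : Type*} [Field F] [Field K]

/-- `GL` along a ring isomorphism. -/
def glMap (e : F ≃+* K) : Matrix.GeneralLinearGroup ι F ≃* Matrix.GeneralLinearGroup ι K :=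
  Units.mapEquiv (RingEquiv.mapMatrix e).toMulEquiv

theorem glMap_coe (e : F ≃+* K) (A : Matrix.GeneralLinearGroup ι F) :
    ((glMap e A : Matrix.GeneralLinearGroup ι K) : Matrix ι ι K) = (A : Matrix ι ι F).map e := rfl

theorem glMap_symm_coe (e : F ≃+* K) (A : Matrix.GeneralLinearGroup ι K) :
    (((glMap e).symm A : Matrix.GeneralLinearGroup ι F) : Matrix ι ι F) = (A : Matrix ι ι K).map e.symm := rfl

theorem glMap_mem (e : F ≃+* K) {QF : (ι → F) → F} {QK : (ι → K) → K}
    (h : ∀ v, QK (e ∘ v) = e (QF v)) {A : Matrix.GeneralLinearGroup ι F} (hA : A ∈ Cfsg.isometryGroup F QF) :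
    glMap e A ∈ Cfsg.isometryGroup K QK := by
  intro w _
  change QK (((glMap e A : Matrix.GeneralLinearGroup ι K) : Matrix ι ι K) *ᵥ w) = QK w
  obtain ⟨v, rfl⟩ : ∃ v, w = e ∘ v := ⟨e.symm ∘ w, by funext i; simp⟩
  have h1 : ((glMap e A : Matrix.GeneralLinearGroup ι K) : Matrix ι ι K) *ᵥ (e ∘ v) = e ∘ ((A : Matrix ι ι F) *ᵥ v) := by
    funext i
    exact (RingHom.map_mulVec (e : F →+* K) (A : Matrix ι ι F) v i).symm
  rw [h1, h, h]
  exact congrArg e (hA v v)

/-- Isometry groups along a ring isomorphism. -/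
def isometryTransfer (e : F ≃+* K) (QF : (ι → F) → F) (QK : (ι → K) → K)
    (h : ∀ v, QK (e ∘ v) = e (QF v)) : Cfsg.isometryGroup F QF ≃* Cfsg.isometryGroup K QK where
  toFun A := ⟨glMap e A.1, glMap_mem e h A.2⟩
  invFun B := ⟨(glMap e).symm B.1, by
    have h' : ∀ v, QF (e.symm ∘ v) = e.symm (QK v) := by
      intro v
      have := h (e.symm ∘ v)
      have e1 : e ∘ (e.symm ∘ v) = v := by
        funext i
        simp
      rw [e1] at this
      rw [this]
      simp
    exact glMap_mem e.symm h' B.2⟩
  left_inv A := by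
    apply Subtype.ext
    simp
  right_inv B := by
    apply Subtype.ext
    simp
  map_mul' A B := by
    apply Subtype.ext
    simp

/-- Over two fields of the same prime order there is a ring isomorphism. -/
noncomputable def ringEquivZMod2 {F : Type*} [Field F] [Fintype F] (hF : Fintype.card F = 2) : F ≃+* ZMod 2 :=
  haveI : Fact (Nat.Prime 2) := ⟨Nat.prime_two⟩
  (FiniteField.ringEquivOfCardEq (by simp [hF]))

end Cfsg.Agent.Lib.Classical
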