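import Mathlib
import Cfsg.Agent.Lib.Classical.SL2Local

/-! Centralisers in `SL₂(q)`: linear span, cyclicity of tori. -/

set_option autoImplicit false
set_option linter.unusedSimpArgs false
set_option linter.unusedVariables false
set_option linter.unusedSectionVars false
set_option linter.style.haveILetI false

namespace Cfsg.Agent.Lib.Classical

open Matrix
open scoped MatrixGroups

variable {F : Type*} [Field F]

theorem mat2_ext {A B : Matrix (Fin 2) (Fin 2) F} (h1 : A 0 0 = B 0 0) (h2 : A 0 1 = B 0 1) (h3 : A 1 0 = B 1 0)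
    (h4 : A 1 1 = B 1 1) : A = B := by
  ext i j
  fin_cases i <;> fin_cases j <;> assumption

@[simp] theorem lin_apply00 (a b : F) (z : Matrix (Fin 2) (Fin 2) F) : (a • (1 : Matrix (Fin 2) (Fin 2) F) + b • z) 0 0 = a + b * z 0 0 := by
  simp

@[simp] theorem lin_apply01 (a b : F) (z : Matrix (Fin 2) (Fin 2) F) : (a • (1 : Matrix (Fin 2) (Fin 2) F) + b • z) 0 1 = b * z 0 1 := by
  simp

@[simp] theorem lin_apply10 (a b : F) (z : Matrix (Fin 2) (Fin 2) F) : (a • (1 : Matrix (Fin 2) (Fin 2) F) + b • z) 1 0 = b * z 1 0 := by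
  simp

@[simp] theorem lin_apply11 (a b : F) (z : Matrix (Fin 2) (Fin 2) F) : (a • (1 : Matrix (Fin 2) (Fin 2) F) + b • z) 1 1 = a + b * z 1 1 := by
  simp

/-- A matrix commuting with a non-scalar `2 × 2` matrix is a polynomial in it. -/
theorem exists_linear_of_comm (z y : Matrix (Fin 2) (Fin 2) F) (hz : ¬ ∃ c : F, z = c • 1) (hc : y * z = z * y) :
    ∃ a b : F, y = a • 1 + b • z := by
  have e00 := congrFun (congrFun hc 0) 0
  have e01 := congrFun (congrFun hc 0) 1
  have e10 := congrFun (congrFun hc 1) 0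
  have e11 := congrFun (congrFun hc 1) 1
  simp only [Matrix.mul_apply, Fin.sum_univ_two] at e00 e01 e10 e11
  by_cases h01 : z 0 1 = 0
  · by_cases h10 : z 1 0 = 0
    · have hd : z 0 0 - z 1 1 ≠ 0 := by
        intro h
        apply hz
        refine ⟨z 0 0, mat2_ext ?_ ?_ ?_ ?_⟩
        · simp
        · simp [h01]
        · simp [h10]
        · simp
          linear_combination -h
      obtain ⟨b, hb⟩ : ∃ b, y 0 0 - y 1 1 = b * (z 0 0 - z 1 1) := ⟨(y 0 0 - y 1 1) / (z 0 0 - z 1 1), by field_simp⟩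
      refine ⟨y 0 0 - b * z 0 0, b, mat2_ext ?_ ?_ ?_ ?_⟩
      · simp
      · rw [lin_apply01, h01, mul_zero]
        have : y 0 1 * (z 0 0 - z 1 1) = 0 := by
          rw [h01] at e01
          linear_combination -e01
        exact (mul_eq_zero.1 this).resolve_right hd
      · rw [lin_apply10, h10, mul_zero]
        have : y 1 0 * (z 0 0 - z 1 1) = 0 := by
          rw [h10] at e10
          linear_combination e10
        exact (mul_eq_zero.1 this).resolve_right hd
      · rw [lin_apply11]
        linear_combination -hb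
    · obtain ⟨b, hb⟩ : ∃ b, y 1 0 = b * z 1 0 := ⟨y 1 0 / z 1 0, by field_simp⟩
      refine ⟨y 0 0 - b * z 0 0, b, mat2_ext ?_ ?_ ?_ ?_⟩
      · simp
      · rw [lin_apply01, h01, mul_zero]
        have : y 0 1 * z 1 0 = 0 := by
          rw [h01] at e00
          linear_combination e00
        exact (mul_eq_zero.1 this).resolve_right h10
      · rw [lin_apply10, hb]
      · rw [lin_apply11]
        apply mul_right_cancel₀ h10
        linear_combination e10 - (z 0 0 - z 1 1) * hb
  · obtain ⟨b, hb⟩ : ∃ b, y 0 1 = b * z 0 1 := ⟨y 0 1 / z 0 1, by field_simp⟩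
    refine ⟨y 0 0 - b * z 0 0, b, mat2_ext ?_ ?_ ?_ ?_⟩
    · simp
    · rw [lin_apply01, hb]
    · rw [lin_apply10]
      apply mul_right_cancel₀ h01
      linear_combination z 1 0 * hb - e00
    · rw [lin_apply11]
      apply mul_right_cancel₀ h01
      linear_combination -e01 - (z 0 0 - z 1 1) * hb

/-- The trace of an element of `SL₂`. -/
abbrev slTr (z : SL(2, F)) : F := (z : Matrix (Fin 2) (Fin 2) F).trace

/-- The determinant of a linear polynomial in `z`, `det z = 1`. -/
theorem det_a_b (z : SL(2, F)) (a b : F) :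
    (a • (1 : Matrix (Fin 2) (Fin 2) F) + b • (z : Matrix (Fin 2) (Fin 2) F)).det = a ^ 2 + a * b * slTr z + b ^ 2 :=
  det_linear _ z.2 a b

/-- Elements with trace of square different from `4` are non-scalar. -/
theorem not_scalar_of_tr (z : SL(2, F)) (ht : slTr z ^ 2 ≠ 4) :
    ¬ ∃ c : F, (z : Matrix (Fin 2) (Fin 2) F) = c • 1 := by
  rintro ⟨c, hc⟩
  apply ht
  have hd : (z : Matrix (Fin 2) (Fin 2) F).det = 1 := z.2
  rw [hc, Matrix.det_fin_two] at hd
  simp at hd
  have ht2 : slTr z = 2 * c := by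
    simp only [slTr, Matrix.trace_fin_two, hc]
    simp
    ring
  rw [ht2]
  linear_combination 4 * hd

/-- An eigenvalue over the algebraic closure. -/
theorem exists_eig (z : SL(2, F)) :
    ∃ l : AlgebraicClosure F, l ^ 2 - algebraMap F _ (slTr z) * l + 1 = 0 := by
  obtain ⟨x, hx⟩ := IsAlgClosed.exists_root (k := AlgebraicClosure F)
    ((Polynomial.X ^ 2 - Polynomial.C (algebraMap F (AlgebraicClosure F) (slTr z)) * Polynomial.X + 1 :
      Polynomial (AlgebraicClosure F))) (by
      have : (Polynomial.X ^ 2 - Polynomial.C (algebraMap F (AlgebraicClosure F) (slTr z)) * Polynomial.X + 1 :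
      Polynomial (AlgebraicClosure F)).degree = 2 := by
        compute_degree!
      rw [this]
      norm_num)
  refine ⟨x, ?_⟩
  simpa [Polynomial.IsRoot] using hx

/-- The centraliser of an element whose trace squared is not `4` is cyclic. -/
theorem centralizer_cyclic [Finite F] (z : SL(2, F)) (ht : slTr z ^ 2 ≠ 4) :
    IsCyclic (Subgroup.centralizer ({z} : Set SL(2, F))) := by
  classical
  haveI := Fintype.ofFinite F
  -- work over the algebraic closure
  let K := AlgebraicClosure F
  let ι : F →+* K := algebraMap F K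
  obtain ⟨l, hl⟩ := exists_eig z
  have hl0 : l ≠ 0 := by
    rintro rfl
    simp at hl
  let M : Matrix (Fin 2) (Fin 2) K := (z : Matrix (Fin 2) (Fin 2) F).map ι
  have hdetz : (z : Matrix (Fin 2) (Fin 2) F).det = 1 := z.2
  have htM : ι (slTr z) = M 0 0 + M 1 1 := by
    simp [M, slTr, Matrix.trace_fin_two]
  have hdetM : M 0 0 * M 1 1 - M 0 1 * M 1 0 = 1 := by
    rw [Matrix.det_fin_two] at hdetz
    have := congrArg ι hdetz
    simpa [M] using this
  -- the eigenvector
  have hdetl : (M - l • 1).det = 0 := by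
    rw [Matrix.det_fin_two]
    simp [Matrix.one_apply]
    have : l ^ 2 - ι (slTr z) * l + 1 = 0 := hl
    rw [htM] at this
    linear_combination this + hdetM
  obtain ⟨u, hu0, hu⟩ := Matrix.exists_mulVec_eq_zero_iff.2 hdetl
  have hMu : M *ᵥ u = l • u := by
    rw [Matrix.sub_mulVec, Matrix.smul_mulVec, Matrix.one_mulVec, sub_eq_zero] at hu
    exact hu
  obtain ⟨i, hi⟩ : ∃ i, u i ≠ 0 := by
    by_contra hcon
    push Not at hcon
    exact hu0 (funext hcon)
  -- the inverse eigenvalue
  have hll : l ≠ l⁻¹ := by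
    intro h
    have h0 : l ^ 2 = 1 := by
      rw [pow_two]
      nth_rewrite 2 [h]
      exact mul_inv_cancel₀ hl0
    have h1 : ι (slTr z) * l = 2 := by
      have : l ^ 2 - ι (slTr z) * l + 1 = 0 := hl
      linear_combination h0 - this
    have h2 : ι (slTr z ^ 2) = 4 := by
      rw [map_pow]
      linear_combination (ι (slTr z) * l + 2) * h1 - (ι (slTr z)) ^ 2 * h0
    apply ht
    apply ι.injective
    rw [h2]
    exact (map_ofNat ι 4).symm
  have htl : ι (slTr z) = l + l⁻¹ := by
    have : l ^ 2 - ι (slTr z) * l + 1 = 0 := hl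
    apply mul_right_cancel₀ hl0
    have e := inv_mul_cancel₀ hl0
    linear_combination -this - e
  -- the eigencharacter
  have hkey : ∀ y : SL(2, F), y * z = z * y → ∃ a b : F, (y : Matrix (Fin 2) (Fin 2) F) = a • 1 + b • (z : Matrix (Fin 2) (Fin 2) F) := by
    intro y hy
    apply exists_linear_of_comm _ _ (not_scalar_of_tr z ht)
    exact congrArg Subtype.val hy
  let f : Subgroup.centralizer ({z} : Set SL(2, F)) → K := fun y =>
    (((y : SL(2, F)) : Matrix (Fin 2) (Fin 2) F).map ι *ᵥ u) i / u i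
  have hcomm : ∀ y : Subgroup.centralizer ({z} : Set SL(2, F)), (y : SL(2, F)) * z = z * y := by
    intro y
    have := Subgroup.mem_centralizer_iff.1 y.2 z rfl
    exact this.symm
  have hf0 : ∀ y : Subgroup.centralizer ({z} : Set SL(2, F)), ∀ a b : F,
      ((y : SL(2, F)) : Matrix (Fin 2) (Fin 2) F) = a • 1 + b • (z : Matrix (Fin 2) (Fin 2) F) →
      ((y : SL(2, F)) : Matrix (Fin 2) (Fin 2) F).map ι *ᵥ u = (ι a + ι b * l) • u ∧ f y = ι a + ι b * l := by
    intro y a b hab
    have h1 : ((y : SL(2, F)) : Matrix (Fin 2) (Fin 2) F).map ι *ᵥ u = (ι a + ι b * l) • u := by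
      have : ((y : SL(2, F)) : Matrix (Fin 2) (Fin 2) F).map ι = ι a • 1 + ι b • M := by
        rw [hab]
        apply mat2_ext <;> simp [M]
      rw [this, Matrix.add_mulVec, Matrix.smul_mulVec, Matrix.smul_mulVec, Matrix.one_mulVec, hMu, smul_smul, add_smul]
    refine ⟨h1, ?_⟩
    simp only [f]
    rw [h1]
    simp [hi]
  have hf : ∀ y : Subgroup.centralizer ({z} : Set SL(2, F)),
      ((y : SL(2, F)) : Matrix (Fin 2) (Fin 2) F).map ι *ᵥ u = f y • u := by
    intro y
    obtain ⟨a, b, hab⟩ := hkey y (hcomm y)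
    obtain ⟨h1, h2⟩ := hf0 y a b hab
    rw [h1, h2]
  have hfmul : ∀ y y' : Subgroup.centralizer ({z} : Set SL(2, F)), f (y * y') = f y * f y' := by
    intro y y'
    have h1 := hf (y * y')
    have h2 : (((y * y' : Subgroup.centralizer ({z} : Set SL(2, F))) : SL(2, F)) : Matrix (Fin 2) (Fin 2) F).map ι
        = ((y : SL(2, F)) : Matrix (Fin 2) (Fin 2) F).map ι * ((y' : SL(2, F)) : Matrix (Fin 2) (Fin 2) F).map ι := by
      simp [Matrix.map_mul]
    rw [h2, ← Matrix.mulVec_mulVec, hf y', Matrix.mulVec_smul, hf y, smul_smul] at h1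
    have h3 := congrFun h1 i
    simp only [Pi.smul_apply, smul_eq_mul] at h3
    have := mul_right_cancel₀ hi h3
    rw [← this, mul_comm]
  have hf1 : f 1 = 1 := by
    simp only [f]
    simp [hi]
  have hinj : ∀ y : Subgroup.centralizer ({z} : Set SL(2, F)), f y = 1 → y = 1 := by
    intro y hy
    obtain ⟨a, b, hab⟩ := hkey y (hcomm y)
    obtain ⟨h1, h2⟩ := hf0 y a b hab
    have h3 : ι a + ι b * l = 1 := by rw [← h2, hy]
    have hdety : ((y : SL(2, F)) : Matrix (Fin 2) (Fin 2) F).det = 1 := (y : SL(2, F)).2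
    rw [hab, det_a_b] at hdety
    have h4 : ι a ^ 2 + ι a * ι b * ι (slTr z) + ι b ^ 2 = 1 := by
      have := congrArg ι hdety
      simpa using this
    have h5 : (ι a + ι b * l) * (ι a + ι b * l⁻¹) = 1 := by
      rw [← h4, htl]
      have : l * l⁻¹ = 1 := mul_inv_cancel₀ hl0
      linear_combination (ι b) ^ 2 * this
    rw [h3, one_mul] at h5
    have h6 : ι b * (l - l⁻¹) = 0 := by linear_combination h3 - h5
    have hb0 : ι b = 0 := (mul_eq_zero.1 h6).resolve_right (sub_ne_zero.2 hll)
    have hb : b = 0 := by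
      apply ι.injective
      rw [hb0, map_zero]
    have ha1 : ι a = 1 := by
      rw [hb0, zero_mul, add_zero] at h3
      exact h3
    have ha : a = 1 := by
      apply ι.injective
      rw [ha1, map_one]
    apply Subtype.ext
    apply Subtype.ext
    rw [hab, ha, hb]
    simp
  let φ : Subgroup.centralizer ({z} : Set SL(2, F)) →* K := ⟨⟨f, hf1⟩, hfmul⟩
  apply isCyclic_of_injective_ringHom φ
  intro y y' h
  have h2 : f y = f y' := h
  have h3 : f (y * y'⁻¹) = 1 := by
    rw [hfmul, h2, ← hfmul, mul_inv_cancel, hf1]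
  have h4 := hinj _ h3
  exact mul_inv_eq_one.1 h4

end Cfsg.Agent.Lib.Classical
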