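import Mathlib
import Cfsg.Agent.Lib.Classical.SL2Tori
import Cfsg.Agent.Lib.Classical.ProjLine

/-! Elements of order four in `SL₂(q)`, `q` odd. -/

set_option autoImplicit false
set_option linter.unusedSimpArgs false
set_option linter.unusedVariables false
set_option linter.unusedSectionVars false
set_option linter.style.haveILetI false

namespace Cfsg.Agent.Lib.Classical

open Matrix
open scoped MatrixGroups

variable {F : Type*} [Field F]

theorem sl2_tr_apply (x : SL(2, F)) : slTr x = (x : Matrix (Fin 2) (Fin 2) F) 0 0 + (x : Matrix (Fin 2) (Fin 2) F) 1 1 := by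
  simp [slTr, Matrix.trace_fin_two]

theorem sl2_det_apply (x : SL(2, F)) :
    (x : Matrix (Fin 2) (Fin 2) F) 0 0 * (x : Matrix (Fin 2) (Fin 2) F) 1 1 - (x : Matrix (Fin 2) (Fin 2) F) 0 1 * (x : Matrix (Fin 2) (Fin 2) F) 1 0 = 1 := by
  have := x.2
  rwa [Matrix.det_fin_two] at this

/-- Trace zero implies square `-1`. -/
theorem sq_eq_neg_one_of_tr {x : SL(2, F)} (h : slTr x = 0) : (x : Matrix (Fin 2) (Fin 2) F) ^ 2 = -1 := by
  have hM := cayley_two (x : Matrix (Fin 2) (Fin 2) F) x.2
  have h1 : (x : Matrix (Fin 2) (Fin 2) F).trace = 0 := h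
  rw [h1, map_zero, zero_mul, sub_zero] at hM
  exact eq_neg_of_add_eq_zero_left hM

theorem slMat_ne_zero (x : SL(2, F)) : (x : Matrix (Fin 2) (Fin 2) F) ≠ 0 := by
  intro h
  have := x.2
  rw [h, Matrix.det_fin_two] at this
  simp at this

/-- Square `-1` implies trace zero, in odd characteristic. -/
theorem tr_of_sq_eq_neg_one {x : SL(2, F)} (h : (x : Matrix (Fin 2) (Fin 2) F) ^ 2 = -1) : slTr x = 0 := by
  have hM := cayley_two (x : Matrix (Fin 2) (Fin 2) F) x.2
  have h1 : algebraMap F (Matrix (Fin 2) (Fin 2) F) (x : Matrix (Fin 2) (Fin 2) F).trace * (x : Matrix (Fin 2) (Fin 2) F) = 0 := by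
    have e : algebraMap F (Matrix (Fin 2) (Fin 2) F) (x : Matrix (Fin 2) (Fin 2) F).trace * (x : Matrix (Fin 2) (Fin 2) F)
        = ((x : Matrix (Fin 2) (Fin 2) F) ^ 2 + 1) - ((x : Matrix (Fin 2) (Fin 2) F) ^ 2 - algebraMap F (Matrix (Fin 2) (Fin 2) F) (x : Matrix (Fin 2) (Fin 2) F).trace * (x : Matrix (Fin 2) (Fin 2) F) + 1) := by
      abel
    rw [e, hM, h]
    simp
  rw [Algebra.algebraMap_eq_smul_one, smul_mul_assoc, one_mul] at h1
  exact (smul_eq_zero.1 h1).resolve_right (slMat_ne_zero x)

/-- The standard element of order four. -/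
def jj (F : Type*) [Field F] : SL(2, F) := ⟨!![0, -1; 1, 0], by simp [Matrix.det_fin_two]⟩

theorem jj_coe : ((jj F : SL(2, F)) : Matrix (Fin 2) (Fin 2) F) = !![0, -1; 1, 0] := rfl

variable [Fintype F]

/-- A vector moved to an independent one. -/
theorem exists_vec_dt (h2 : (2 : F) ≠ 0) {x : SL(2, F)} (h : slTr x = 0) :
    ∃ u : Fin 2 → F, dt u ((x : Matrix (Fin 2) (Fin 2) F) *ᵥ u) ≠ 0 := by
  by_contra hcon
  push Not at hcon
  have h1 := hcon ![1, 0]
  have h3 := hcon ![0, 1]
  have h4 := hcon ![1, 1]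
  simp only [dt, Matrix.mulVec, dotProduct, Fin.sum_univ_two] at h1 h3 h4
  simp at h1 h3 h4
  have h5 := sl2_tr_apply x
  rw [h] at h5
  have h6 := sl2_det_apply x
  rw [h1, h3] at h6
  have h7 : (2 : F) * (x : Matrix (Fin 2) (Fin 2) F) 1 1 = 0 := by
    rw [h1, h3] at h4
    linear_combination h4 - h5
  have h8 := (mul_eq_zero.1 h7).resolve_left h2
  have h9 : (x : Matrix (Fin 2) (Fin 2) F) 0 0 = 0 := by linear_combination -h5 - h8
  rw [h8, h9] at h6
  simp at h6

/-- Every element of trace zero is conjugate to `jj`. -/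
theorem conj_jj (hodd : Odd (Fintype.card F)) {x : SL(2, F)} (h : slTr x = 0) :
    ∃ g : SL(2, F), x = g * jj F * g⁻¹ := by
  have h2 := two_ne_zero_of_odd hodd
  obtain ⟨u, hu⟩ := exists_vec_dt h2 h
  set w := (x : Matrix (Fin 2) (Fin 2) F) *ᵥ u with hw
  set d := dt u w with hd
  -- sum of two squares
  obtain ⟨s, t, hst⟩ : ∃ s t : F, s ^ 2 + t ^ 2 = d⁻¹ := by
    obtain ⟨a, b, hab⟩ := FiniteField.exists_root_sum_quadratic (R := F)
      (f := Polynomial.X ^ 2) (g := Polynomial.X ^ 2 - Polynomial.C d⁻¹)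
      (by compute_degree!) (by compute_degree!) (Nat.odd_iff.1 hodd)
    refine ⟨a, b, ?_⟩
    simp at hab
    linear_combination hab
  have hxu : (x : Matrix (Fin 2) (Fin 2) F) *ᵥ w = -u := by
    rw [hw, Matrix.mulVec_mulVec, ← pow_two, sq_eq_neg_one_of_tr h, Matrix.neg_mulVec, Matrix.one_mulVec]
  let G : Matrix (Fin 2) (Fin 2) F := colMat u w * !![s, -t; t, s]
  have hG : G.det = 1 := by
    simp only [G]
    rw [Matrix.det_mul, colMat_det, Matrix.det_fin_two_of]
    rw [← hd]
    have : s * s - -t * t = d⁻¹ := by rw [← hst]; ring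
    rw [this]
    exact mul_inv_cancel₀ hu
  let g : SL(2, F) := ⟨G, hG⟩
  refine ⟨g, ?_⟩
  have hkey : x * g = g * jj F := by
    apply Subtype.ext
    change (x : Matrix (Fin 2) (Fin 2) F) * G = G * !![0, -1; 1, 0]
    have e1 : (x : Matrix (Fin 2) (Fin 2) F) * colMat u w = colMat u w * !![0, -1; 1, 0] := by
      have c0 := congrFun hw 0
      have c1 := congrFun hw 1
      have c2 := congrFun hxu 0
      have c3 := congrFun hxu 1
      simp only [Matrix.mulVec, dotProduct, Fin.sum_univ_two, Pi.neg_apply] at c0 c1 c2 c3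
      apply mat2_ext <;> simp [colMat, Matrix.mul_apply, Fin.sum_univ_two] <;> first | linear_combination -c0 | linear_combination -c1 | linear_combination c2 | linear_combination c3
    have e2 : (!![s, -t; t, s] : Matrix (Fin 2) (Fin 2) F) * !![0, -1; 1, 0] = !![0, -1; 1, 0] * !![s, -t; t, s] := by
      apply mat2_ext <;> simp [Matrix.mul_apply, Fin.sum_univ_two]
    simp only [G]
    rw [← mul_assoc, e1, mul_assoc, ← e2, mul_assoc]
  rw [← hkey]
  group

/-- Any two elements of trace zero are conjugate. -/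
theorem trZero_conj (hodd : Odd (Fintype.card F)) {x y : SL(2, F)} (hx : slTr x = 0) (hy : slTr y = 0) :
    ∃ g : SL(2, F), y = g * x * g⁻¹ := by
  obtain ⟨a, ha⟩ := conj_jj hodd hx
  obtain ⟨b, hb⟩ := conj_jj hodd hy
  refine ⟨b * a⁻¹, ?_⟩
  rw [hb, ha]
  group

/-- The negative in `SL₂`. -/
def slN (x : SL(2, F)) : SL(2, F) := slNeg F * x

theorem slN_coe (x : SL(2, F)) : ((slN x : SL(2, F)) : Matrix (Fin 2) (Fin 2) F) = - (x : Matrix (Fin 2) (Fin 2) F) := by
  simp [slN]

theorem slN_tr {x : SL(2, F)} (h : slTr x = 0) : slTr (slN x) = 0 := by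
  simp only [slTr, slN_coe, Matrix.trace_neg]
  rw [show (x : Matrix (Fin 2) (Fin 2) F).trace = 0 from h, neg_zero]

omit [Fintype F] in
theorem sl_mem_centralizer {x y : SL(2, F)} (h : (y : Matrix (Fin 2) (Fin 2) F) * x = x * y) :
    y ∈ Subgroup.centralizer ({x} : Set SL(2, F)) := by
  rw [Subgroup.mem_centralizer_iff]
  rintro _ rfl
  apply Subtype.ext
  exact h.symm

/-- Centraliser of a trace-zero element as a circle. -/
theorem card_centralizer_trZero (hodd : Odd (Fintype.card F)) {x : SL(2, F)} (h : slTr x = 0) :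
    Nat.card (Subgroup.centralizer ({x} : Set SL(2, F))) = Nat.card {p : F × F // p.1 ^ 2 + p.2 ^ 2 = 1} := by
  classical
  have h2 := two_ne_zero_of_odd hodd
  have h4 : (4 : F) ≠ 0 := by
    have : (4 : F) = 2 * 2 := by norm_num
    rw [this]
    exact mul_ne_zero h2 h2
  have hsc : ¬ ∃ c : F, (x : Matrix (Fin 2) (Fin 2) F) = c • 1 := by
    apply not_scalar_of_tr
    rw [h]
    intro h5
    apply h4
    rw [← h5]
    simp
  have hcomm : ∀ (s t : F), (s • (1 : Matrix (Fin 2) (Fin 2) F) + t • (x : Matrix (Fin 2) (Fin 2) F)) * x = x * (s • 1 + t • (x : Matrix (Fin 2) (Fin 2) F)) := by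
    intro s t
    rw [add_mul, mul_add, smul_mul_assoc, smul_mul_assoc, mul_smul_comm, mul_smul_comm, one_mul, mul_one]
  let f : {p : F × F // p.1 ^ 2 + p.2 ^ 2 = 1} → Subgroup.centralizer ({x} : Set SL(2, F)) := fun p =>
    ⟨(⟨p.1.1 • 1 + p.1.2 • (x : Matrix (Fin 2) (Fin 2) F), by
      rw [det_a_b, h]
      have := p.2
      linear_combination this⟩ : SL(2, F)), sl_mem_centralizer (hcomm _ _)⟩
  have hf : Function.Bijective f := by
    constructor
    · rintro ⟨⟨s, t⟩, hp⟩ ⟨⟨s', t'⟩, hp'⟩ he
      have he2 : s • (1 : Matrix (Fin 2) (Fin 2) F) + t • (x : Matrix (Fin 2) (Fin 2) F) = s' • 1 + t' • (x : Matrix (Fin 2) (Fin 2) F) :=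
        congrArg (fun y : Subgroup.centralizer ({x} : Set SL(2, F)) => ((y : SL(2, F)) : Matrix (Fin 2) (Fin 2) F)) he
      have htt : t = t' := by
        by_contra hne
        apply hsc
        refine ⟨(s' - s) / (t - t'), ?_⟩
        have hd : t - t' ≠ 0 := sub_ne_zero.2 hne
        have : (t - t') • (x : Matrix (Fin 2) (Fin 2) F) = (s' - s) • 1 := by
          rw [sub_smul, sub_smul]
          have e := sub_eq_zero.2 he2
          linear_combination (norm := skip) e
          abel
        rw [div_eq_inv_mul, mul_smul, ← this, smul_smul, inv_mul_cancel₀ hd, one_smul]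
      subst htt
      have hss : s = s' := by
        have h00 := congrFun (congrFun he2 0) 0
        have h11 := congrFun (congrFun he2 1) 1
        simp only [lin_apply00, lin_apply11] at h00 h11
        linear_combination h00
      subst hss
      rfl
    · rintro ⟨y, hy⟩
      have hy2 : y * x = x * y := (Subgroup.mem_centralizer_iff.1 hy x rfl).symm
      obtain ⟨s, t, hst⟩ := exists_linear_of_comm _ _ hsc (congrArg Subtype.val hy2)
      have hdet : s ^ 2 + t ^ 2 = 1 := by
        have := y.2
        rw [hst, det_a_b, h] at this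
        linear_combination this
      refine ⟨⟨(s, t), hdet⟩, ?_⟩
      apply Subtype.ext
      apply Subtype.ext
      exact hst.symm
  exact (Nat.card_congr (Equiv.ofBijective f hf)).symm

/-- The circle when `-1` is a square. -/
theorem card_circle_of_square (h2 : (2 : F) ≠ 0) {i : F} (hi : i ^ 2 = -1) :
    Nat.card {p : F × F // p.1 ^ 2 + p.2 ^ 2 = 1} = Fintype.card F - 1 := by
  classical
  have hi0 : i ≠ 0 := by
    rintro rfl
    have h1 : (1 : F) = 0 := by
      have : (0 : F) ^ 2 = 0 := by norm_num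
      rw [this] at hi
      linear_combination hi
    exact one_ne_zero h1
  have e1 : ∀ p : {p : F × F // p.1 ^ 2 + p.2 ^ 2 = 1}, (p.1.1 + i * p.1.2) * (p.1.1 - i * p.1.2) = 1 := by
    intro p
    have := p.2
    linear_combination this - p.1.2 ^ 2 * hi
  let f : {p : F × F // p.1 ^ 2 + p.2 ^ 2 = 1} → Fˣ := fun p =>
    Units.mk0 (p.1.1 + i * p.1.2) (left_ne_zero_of_mul_eq_one (e1 p))
  have hf : Function.Bijective f := by
    constructor
    · rintro ⟨⟨s, t⟩, hp⟩ ⟨⟨s', t'⟩, hp'⟩ he
      have he2 : s + i * t = s' + i * t' := congrArg Units.val he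
      have h3 := e1 ⟨⟨s, t⟩, hp⟩
      have h4 := e1 ⟨⟨s', t'⟩, hp'⟩
      simp only at h3 h4
      rw [he2] at h3
      have h5 : s' + i * t' ≠ 0 := left_ne_zero_of_mul_eq_one h4
      have h6 : s - i * t = s' - i * t' := by
        apply mul_left_cancel₀ h5
        rw [h3, h4]
      have hs : s = s' := by
        have : 2 * s = 2 * s' := by linear_combination he2 + h6
        exact mul_left_cancel₀ h2 this
      have ht : t = t' := by
        have : i * t = i * t' := by rw [hs] at he2; linear_combination he2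
        exact mul_left_cancel₀ hi0 this
      subst hs ht
      rfl
    · intro u
      have hu : (u : F) ≠ 0 := u.ne_zero
      obtain ⟨v, hv⟩ : ∃ v : F, (u : F) * v = 1 := ⟨(u : F)⁻¹, mul_inv_cancel₀ hu⟩
      obtain ⟨h, hh⟩ : ∃ h : F, 2 * h = 1 := ⟨2⁻¹, mul_inv_cancel₀ h2⟩
      refine ⟨⟨(((u : F) + v) * h, (v - (u : F)) * i * h), ?_⟩, ?_⟩
      · simp only
        linear_combination (v - (u : F)) ^ 2 * h ^ 2 * hi + 4 * h ^ 2 * hv + (2 * h + 1) * hh
      · apply Units.ext
        simp only [f, Units.val_mk0]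
        linear_combination (v - (u : F)) * h * hi + (u : F) * hh
  have := Nat.card_congr (Equiv.ofBijective f hf)
  rw [this, Nat.card_eq_fintype_card, Fintype.card_units]

/-- The circle when `-1` is not a square. -/
theorem card_circle_of_not_square (h2 : (2 : F) ≠ 0) (hi : ∀ m : F, m ^ 2 ≠ -1) :
    Nat.card {p : F × F // p.1 ^ 2 + p.2 ^ 2 = 1} = Fintype.card F + 1 := by
  classical
  have h1m : ∀ m : F, 1 + m ^ 2 ≠ 0 := by
    intro m h
    apply hi m
    linear_combination h
  have e0 : ((-1 : F), (0 : F)).1 ^ 2 + ((-1 : F), (0 : F)).2 ^ 2 = 1 := by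
    simp
  have e1 : ∀ m : F, ((1 - m ^ 2) * (1 + m ^ 2)⁻¹) ^ 2 + (2 * m * (1 + m ^ 2)⁻¹) ^ 2 = 1 := by
    intro m
    have := h1m m
    field_simp
    ring
  let f : Option F → {p : F × F // p.1 ^ 2 + p.2 ^ 2 = 1} := fun o =>
    match o with
    | none => ⟨(-1, 0), e0⟩
    | some m => ⟨((1 - m ^ 2) * (1 + m ^ 2)⁻¹, 2 * m * (1 + m ^ 2)⁻¹), e1 m⟩
  have hf : Function.Bijective f := by
    constructor
    · intro a b hab
      have hne : ∀ m : F, (1 - m ^ 2) * (1 + m ^ 2)⁻¹ ≠ -1 := by
        intro m h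
        have := h1m m
        field_simp at h
        apply h2
        linear_combination h
      rcases a with _ | a <;> rcases b with _ | b
      · rfl
      · exfalso
        have := congrArg (fun p : {p : F × F // p.1 ^ 2 + p.2 ^ 2 = 1} => p.1.1) hab
        exact hne b this.symm
      · exfalso
        have := congrArg (fun p : {p : F × F // p.1 ^ 2 + p.2 ^ 2 = 1} => p.1.1) hab
        exact hne a this
      · have h1 := congrArg (fun p : {p : F × F // p.1 ^ 2 + p.2 ^ 2 = 1} => p.1.1) hab
        have h3 := congrArg (fun p : {p : F × F // p.1 ^ 2 + p.2 ^ 2 = 1} => p.1.2) hab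
        simp only [f] at h1 h3
        have ha := h1m a
        have hb := h1m b
        have k1 : (1 + a ^ 2)⁻¹ = (1 + b ^ 2)⁻¹ := by
          have e2 : ∀ m : F, (1 - m ^ 2) * (1 + m ^ 2)⁻¹ + 1 = 2 * (1 + m ^ 2)⁻¹ := by
            intro m
            have := h1m m
            field_simp
            ring
          have := e2 a
          rw [h1, e2 b] at this
          exact (mul_left_cancel₀ h2 this).symm
        have k2 : (1 + a ^ 2)⁻¹ ≠ 0 := inv_ne_zero ha
        have : a * (2 * (1 + a ^ 2)⁻¹) = b * (2 * (1 + a ^ 2)⁻¹) := by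
          rw [k1] at h3 ⊢
          linear_combination h3
        have h5 := mul_right_cancel₀ (mul_ne_zero h2 k2) this
        rw [h5]
    · rintro ⟨⟨s, t⟩, hp⟩
      simp only at hp
      by_cases hs : s = -1
      · refine ⟨none, ?_⟩
        apply Subtype.ext
        have ht : t = 0 := by
          rw [hs] at hp
          have : t ^ 2 = 0 := by linear_combination hp
          exact pow_eq_zero_iff (by norm_num) |>.1 this
        simp [f, hs, ht]
      · have hw : 1 + s ≠ 0 := by
          intro h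
          apply hs
          linear_combination h
        refine ⟨some (t / (1 + s)), ?_⟩
        apply Subtype.ext
        have h1 := h1m (t / (1 + s))
        have ht2 : t ^ 2 = (1 - s) * (1 + s) := by linear_combination hp
        have e3 : 1 + (t / (1 + s)) ^ 2 = 2 / (1 + s) := by
          field_simp
          linear_combination ht2
        simp only [f]
        rw [e3]
        have e4 : (1 - (t / (1 + s)) ^ 2) = 2 * s / (1 + s) := by
          field_simp
          linear_combination -ht2
        rw [e4]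
        ext
        · simp only
          field_simp
        · simp only
          field_simp
  have := Nat.card_congr (Equiv.ofBijective f hf)
  rw [← this, Nat.card_eq_fintype_card, Fintype.card_option]

end Cfsg.Agent.Lib.Classical
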